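import Cfsg.Agent.Lib.Hall.RelTwoClass

/-!
The main case analysis for a normal subgroup with two relative class sizes.
-/

set_option autoImplicit false
set_option linter.style.haveILetI false

namespace Cfsg.Agent.Lib.Hall.RelTwoClass

open Subgroup TwoClass

variable {G : Type*} [Group G] [Finite G] {N : Subgroup G} {m : ℕ}

/-- The stabiliser of the centraliser, modulo the centraliser, has order divisible by `ℓ`. -/
theorem exists_ppow_normalizing [N.Normal] (h : Cond N m) {C : Subgroup G} (hCi : C.index = m)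
    {ℓ : ℕ} [hℓ : Fact ℓ.Prime] {a : G} (haN : a ∈ N) (haC : a ∈ C) (hac : a ∉ center G) {k : ℕ}
    (ha : a ^ ℓ ^ k = 1) (hM : ∀ z ∈ N, z ∈ C → z ∉ center G → C1 z = C) (hdvd : ℓ ∣ m) :
    ∃ v : G, (∃ j, v ^ ℓ ^ j = 1) ∧ v ∈ normalizer (C : Set G) ∧ v ∉ C := by
  obtain ⟨i, -, hi⟩ := (Nat.dvd_prime_pow hℓ.out).1
    (orderOf_dvd_of_pow_eq_one (show (⟨a, haC⟩ : ↥C) ^ ℓ ^ k = 1 from Subtype.ext (by simpa using ha)))
  obtain ⟨T, hT⟩ := (IsPGroup.of_card (n := i) (by rw [Nat.card_zpowers, hi]) :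
    IsPGroup ℓ (zpowers (⟨a, haC⟩ : ↥C))).exists_le_sylow
  set T' := (T : Subgroup ↥C).map C.subtype with hT'
  have haT : a ∈ T' := ⟨⟨a, haC⟩, hT (mem_zpowers _), rfl⟩
  have hTp : IsPGroup ℓ T' := T.2.map _
  have hTC : T' ≤ C := map_subtype_le _
  obtain ⟨e, he⟩ := IsPGroup.iff_card.1 hTp
  have hdv : ℓ ^ (e + 1) ∣ Nat.card G := by
    rw [← C.card_mul_index, hCi, pow_succ, ← he]
    exact mul_dvd_mul (card_dvd_of_le hTC) hdvd
  have hq := Sylow.prime_dvd_card_quotient_normalizer hdv he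
  haveI : (T'.comap (normalizer (T' : Set G)).subtype).Normal := normal_in_normalizer
  obtain ⟨w, hw⟩ := exists_prime_orderOf_dvd_card' ℓ hq
  obtain ⟨⟨v, hvn⟩, rfl⟩ := QuotientGroup.mk_surjective w
  have hvT : v ∉ T' := fun hv => by
    have : (QuotientGroup.mk (⟨v, hvn⟩ : ↥(normalizer (T' : Set G))) :
        ↥(normalizer (T' : Set G)) ⧸ T'.comap (normalizer (T' : Set G)).subtype) = 1 :=
      (QuotientGroup.eq_one_iff _).2 hv
    rw [this, orderOf_one] at hw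
    exact hℓ.out.ne_one hw.symm
  have hvl : v ^ ℓ ∈ T' := by
    have := pow_orderOf_eq_one (QuotientGroup.mk (⟨v, hvn⟩ : ↥(normalizer (T' : Set G))) :
        ↥(normalizer (T' : Set G)) ⧸ T'.comap (normalizer (T' : Set G)).subtype)
    rw [hw, ← QuotientGroup.mk_pow, QuotientGroup.eq_one_iff] at this
    exact this
  obtain ⟨j, hj⟩ := hTp ⟨_, hvl⟩
  have hvp : v ^ ℓ ^ (j + 1) = 1 := by
    rw [pow_succ', pow_mul]
    exact congrArg Subtype.val hj
  have hb : v * a * v⁻¹ ∈ T' := (mem_normalizer_iff.1 hvn a).1 haT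
  have hbC : C1 (v * a * v⁻¹) = C :=
    hM _ ((inferInstance : N.Normal).conj_mem a haN v) (hTC hb) (conj_not_mem_center v hac)
  have haCe : C1 a = C := hM a haN haC hac
  refine ⟨v, ⟨j + 1, hvp⟩, mem_normalizer_iff.2 fun c => ⟨fun hc => ?_, fun hc => ?_⟩, fun hvC => ?_⟩
  · rw [← hbC]
    exact mem_C1_conj (haCe.symm ▸ hc)
  · rw [← haCe]
    have := mem_C1_conj (g := v⁻¹) (hbC.symm ▸ hc)
    simpa [mul_assoc] using this
  · have hvz : IsPGroup ℓ (zpowers (⟨v, hvC⟩ : ↥C)) := by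
      obtain ⟨i', -, hi'⟩ := (Nat.dvd_prime_pow hℓ.out).1
        (orderOf_dvd_of_pow_eq_one (show (⟨v, hvC⟩ : ↥C) ^ ℓ ^ (j + 1) = 1 from
          Subtype.ext (by simpa using hvp)))
      exact IsPGroup.of_card (n := i') (by rw [Nat.card_zpowers, hi'])
    have hnorm : zpowers (⟨v, hvC⟩ : ↥C) ≤ normalizer ((T : Subgroup ↥C) : Set ↥C) := by
      refine zpowers_le.2 (mem_normalizer_iff.2 fun c => ?_)
      have := mem_normalizer_iff.1 hvn (c : G)
      have hmem : ∀ t : ↥C, t ∈ (T : Subgroup ↥C) ↔ (t : G) ∈ T' := fun t =>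
        ⟨fun ht => ⟨t, ht, rfl⟩, fun ⟨t', ht', e⟩ => (Subtype.ext e : t' = t) ▸ ht'⟩
      rw [hmem, hmem]
      exact this
    have := T.3 (T.2.to_sup_of_normal_left' hvz hnorm) le_sup_left
    exact hvT ⟨⟨v, hvC⟩, this ▸ mem_sup_right (mem_zpowers _), rfl⟩

theorem pElement_coprime_zpowers {y c : G} (hcom : Commute y c) {q s i j : ℕ} (hq : q.Prime)
    (hs : s.Prime) (hqs : q ≠ s) (hy : y ^ q ^ i = 1) (hc : c ^ s ^ j = 1) :
    y ∈ zpowers (y * c) ∧ c ∈ zpowers (y * c) := by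
  have hcop : (orderOf y).Coprime (orderOf c) :=
    Nat.Coprime.coprime_dvd_left (orderOf_dvd_of_pow_eq_one hy)
      (Nat.Coprime.coprime_dvd_right (orderOf_dvd_of_pow_eq_one hc)
        (((Nat.coprime_primes hq hs).2 hqs).pow _ _))
  have hy'm : y ∈ zpowers (y * c) := by
    have h1 : (y * c) ^ orderOf c = y ^ orderOf c := by
      rw [hcom.mul_pow, pow_orderOf_eq_one, mul_one]
    obtain ⟨e, he⟩ := exists_pow_eq_self_of_coprime hcop.symm
    have := pow_mem (pow_mem (mem_zpowers (y * c)) (orderOf c)) e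
    rwa [h1, he] at this
  refine ⟨hy'm, ?_⟩
  have := mul_mem (inv_mem hy'm) (mem_zpowers (y * c))
  rwa [inv_mul_cancel_left] at this

/-- Both primes divide `m`: impossible. -/
theorem false_of_dvd [N.Normal] {C : Subgroup G} (hCi : C.index = m) (h : Cond N m)
    {r : ℕ} [hr : Fact r.Prime] (R : Sylow r G) (hRN : (R : Subgroup G) ≤ N)
    (hM : ∀ z ∈ N, z ∈ C → z ∉ center G → C1 z = C) {q : ℕ} [hq : Fact q.Prime] (hqr : q ≠ r)
    (hodd : r ≠ 2 → q ≠ 2 → ∀ z ∈ N, ∀ k, z ^ 2 ^ k = 1 → z ∈ center G)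
    {y : G} (hyN : y ∈ N) (hyC : y ∈ C) (hyc : y ∉ center G) {a : ℕ} (hy : y ^ q ^ a = 1)
    {s : G} (hsN : s ∈ N) (hsC : s ∈ C) (hsc : s ∉ center G) {b : ℕ} (hs : s ^ r ^ b = 1)
    (hrm : r ∣ m) (hqm : q ∣ m) : False := by
  classical
  have hcomm : ∀ z ∈ C ⊓ N, ∀ c ∈ C, c * z = z * c := by
    intro z hz c hc
    by_cases hzc : z ∈ center G
    · exact mem_center_iff.1 hzc c
    · exact mem_C1.1 ((hM z hz.2 hz.1 hzc).symm ▸ hc)
  set M := C ⊓ N with hMdef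
  letI : CommGroup ↥M :=
    { (inferInstance : Group ↥M) with
      mul_comm := fun x z => Subtype.ext (hcomm z z.2 x x.2.1) }
  set X := normalizer (C : Set G) with hX
  have hconj : ∀ x ∈ X, ∀ z ∈ M, x * z * x⁻¹ ∈ M := fun x hx z hz =>
    ⟨(mem_normalizer_iff.1 hx z).1 hz.1, (inferInstance : N.Normal).conj_mem z hz.2 x⟩
  let e : ↥X →* MulAut ↥M :=
    { toFun := fun x =>
        { toFun := fun z => ⟨x * z * (x : G)⁻¹, hconj x x.2 z z.2⟩
          invFun := fun z => ⟨(x : G)⁻¹ * z * x, by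
            simpa using hconj (x : G)⁻¹ (inv_mem x.2) z z.2⟩
          left_inv := fun z => Subtype.ext (by simp [mul_assoc])
          right_inv := fun z => Subtype.ext (by simp [mul_assoc])
          map_mul' := fun z z' => Subtype.ext (by simp [mul_assoc]) }
      map_one' := MulEquiv.ext fun z => Subtype.ext (by simp)
      map_mul' := fun x x' => MulEquiv.ext fun z => Subtype.ext (by simp [mul_assoc]) }
  have he : ∀ (x : ↥X) (z : ↥M), ((e x z : ↥M) : G) = x * z * (x : G)⁻¹ := fun x z => rfl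
  let K : Subgroup ↥M := (center G).subgroupOf M
  have heK : ∀ (x : ↥X) (z : ↥M), z ∈ K → e x z = z := fun x z hz => Subtype.ext (by
    rw [he, mem_center_iff.1 (show (z : G) ∈ center G from hz) x, mul_inv_cancel_right])
  have heK' : ∀ x : ↥X, K ≤ K.comap (e x).toMonoidHom := fun x z hz => by
    show e x z ∈ K
    rwa [heK x z hz]
  have hmap : ∀ x : ↥X, K.map ((e x : ↥M ≃* ↥M) : ↥M →* ↥M) = K := fun x => by
    ext z
    refine ⟨?_, fun hz => ⟨z, hz, heK x z hz⟩⟩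
    rintro ⟨w, hw, rfl⟩
    exact (heK x w hw).symm ▸ hw
  let φ : ↥X →* MulAut (↥M ⧸ K) :=
    { toFun := fun x => QuotientGroup.congr K K (e x) (hmap x)
      map_one' := MulEquiv.ext fun v => by
        obtain ⟨z, rfl⟩ := QuotientGroup.mk_surjective v
        show (QuotientGroup.mk (e 1 z) : ↥M ⧸ K) = _
        rw [map_one]
        rfl
      map_mul' := fun x x' => MulEquiv.ext fun v => by
        obtain ⟨z, rfl⟩ := QuotientGroup.mk_surjective v
        show (QuotientGroup.mk (e (x * x') z) : ↥M ⧸ K) = _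
        rw [map_mul]
        rfl }
  have hφ : ∀ (x : ↥X) (z : ↥M), φ x (QuotientGroup.mk z) = QuotientGroup.mk (e x z) :=
    fun x z => rfl
  let C₀ : Subgroup ↥X := C.subgroupOf X
  haveI : C₀.Normal := Subgroup.normal_in_normalizer
  have hC₀ : ∀ (x : ↥X), x ∈ C₀ → ∀ z, e x z = z := fun x hx z => Subtype.ext (by
    rw [he, hcomm z z.2 x hx, mul_inv_cancel_right])
  let ρ : ↥X ⧸ C₀ →* MulAut (↥M ⧸ K) := QuotientGroup.lift C₀ φ (fun x hx => MulEquiv.ext fun v => by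
    obtain ⟨z, rfl⟩ := QuotientGroup.mk_surjective v
    rw [hφ, hC₀ x hx z]
    rfl)
  have hρ : ∀ (x : ↥X) (z : ↥M),
      ρ (QuotientGroup.mk x) (QuotientGroup.mk z) = QuotientGroup.mk (e x z) := fun x z => rfl
  have hkey : ∀ (x : ↥X) (z : ↥M), x ∉ C₀ → e x z = z → z ∈ K := fun x z hx hz => by
    by_contra hzc
    refine hx ?_
    show (x : G) ∈ C
    rw [← hM z z.2.2 z.2.1 hzc, mem_C1]
    have := congrArg Subtype.val hz
    rw [he, mul_inv_eq_iff_eq_mul] at this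
    exact this
  have hcond : NormZero.Cond ρ := by
    refine ⟨fun g ℓ hℓ hg hgl v => ?_, fun g v hg hgv g' hgg' => ?_⟩
    · obtain ⟨x, rfl⟩ := QuotientGroup.mk_surjective g
      obtain ⟨z, rfl⟩ := QuotientGroup.mk_surjective v
      have hxl : x ^ ℓ ∈ C₀ := by
        rwa [← QuotientGroup.mk_pow, QuotientGroup.eq_one_iff] at hgl
      have hx : x ∉ C₀ := fun hx => hg ((QuotientGroup.eq_one_iff x).2 hx)
      simp only [← QuotientGroup.mk_pow, hρ]
      rw [show (∏ i ∈ Finset.range ℓ, (QuotientGroup.mk (e (x ^ i) z) : ↥M ⧸ K)) =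
        QuotientGroup.mk (∏ i ∈ Finset.range ℓ, e (x ^ i) z) from
          (map_prod (QuotientGroup.mk' K) _ _).symm, QuotientGroup.eq_one_iff]
      refine hkey x _ hx ?_
      rw [map_prod]
      have hstep : ∀ i, e x (e (x ^ i) z) = e (x ^ (i + 1)) z := fun i => by
        rw [pow_succ', map_mul]
        rfl
      simp only [hstep]
      have h1 := Finset.prod_range_succ (fun i => e (x ^ i) z) ℓ
      rw [Finset.prod_range_succ', hC₀ _ hxl, pow_zero, map_one] at h1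
      exact mul_right_cancel h1
    · obtain ⟨x, rfl⟩ := QuotientGroup.mk_surjective g
      obtain ⟨x', rfl⟩ := QuotientGroup.mk_surjective g'
      obtain ⟨z, rfl⟩ := QuotientGroup.mk_surjective v
      have hx : x ∉ C₀ := fun hx => hg ((QuotientGroup.eq_one_iff x).2 hx)
      rw [hρ, eq_comm, QuotientGroup.eq] at hgv
      rw [hρ, eq_comm, QuotientGroup.eq]
      refine hkey x _ hx ?_
      rw [← QuotientGroup.mk_mul, ← QuotientGroup.mk_mul, QuotientGroup.eq] at hgg'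
      have hsw : e (x * x') z = e (x' * x) z := by
        conv_rhs => rw [show x' * x = x * x' * ((x * x')⁻¹ * (x' * x)) by group, map_mul,
          MulAut.mul_apply, hC₀ _ hgg']
      rw [map_mul, map_inv]
      set d := z⁻¹ * e x z with hd
      have hxz : e x z = z * d := by rw [hd, mul_inv_cancel_left]
      have h2 : e x (e x' z) = e x' (z * d) := by
        rw [← hxz, ← MulAut.mul_apply, ← map_mul, hsw, map_mul, MulAut.mul_apply]
      rw [h2, hxz, map_mul, heK x' d hgv, mul_inv_rev, mul_comm d⁻¹, mul_comm (e x' z) d,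
        mul_assoc, inv_mul_cancel_left]
  -- the primes divide the orders
  have hQ : ∀ {ℓ : ℕ} [Fact ℓ.Prime] {z : G}, z ∈ M → z ∉ center G → ∀ {k : ℕ}, z ^ ℓ ^ k = 1 →
      ℓ ∣ Nat.card (↥M ⧸ K) := by
    intro ℓ hℓ z hz hzc k hk
    have h1 : orderOf (QuotientGroup.mk ⟨z, hz⟩ : ↥M ⧸ K) ∣ ℓ ^ k := by
      refine orderOf_dvd_of_pow_eq_one ?_
      rw [← QuotientGroup.mk_pow, show (⟨z, hz⟩ : ↥M) ^ ℓ ^ k = 1 from Subtype.ext (by simpa using hk)]
      rfl
    obtain ⟨i, -, hi⟩ := (Nat.dvd_prime_pow hℓ.out).1 h1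
    have hi0 : i ≠ 0 := fun e => hzc ((QuotientGroup.eq_one_iff (⟨z, hz⟩ : ↥M)).1
      (orderOf_eq_one_iff.1 (by rw [hi, e, pow_zero])))
    exact (dvd_pow_self ℓ hi0).trans (hi ▸ orderOf_dvd_natCard _)
  have hXp : ∀ {ℓ : ℕ} [Fact ℓ.Prime] {v : G} (hv : v ∈ X), v ∉ C → ∀ {j : ℕ}, v ^ ℓ ^ j = 1 →
      ∀ D : Subgroup (↥X ⧸ C₀), QuotientGroup.mk ⟨v, hv⟩ ∈ D → ℓ ∣ Nat.card D := by
    intro ℓ hℓ v hv hvC j hj D hD
    have h1 : orderOf (⟨_, hD⟩ : ↥D) ∣ ℓ ^ j := by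
      refine orderOf_dvd_of_pow_eq_one (Subtype.ext ?_)
      show (QuotientGroup.mk ⟨v, hv⟩ : ↥X ⧸ C₀) ^ ℓ ^ j = 1
      rw [← QuotientGroup.mk_pow, show (⟨v, hv⟩ : ↥X) ^ ℓ ^ j = 1 from Subtype.ext (by simpa using hj)]
      rfl
    obtain ⟨i, -, hi⟩ := (Nat.dvd_prime_pow hℓ.out).1 h1
    have hi0 : i ≠ 0 := fun e => hvC ((QuotientGroup.eq_one_iff (⟨v, hv⟩ : ↥X)).1
      (congrArg Subtype.val (orderOf_eq_one_iff.1 (by rw [hi, e, pow_zero]) : (⟨_, hD⟩ : ↥D) = 1)))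
    exact (dvd_pow_self ℓ hi0).trans (hi ▸ orderOf_dvd_natCard _)
  obtain ⟨v, ⟨j, hj⟩, hvX, hvC⟩ := exists_ppow_normalizing h hCi hsN hsC hsc hs hM hrm
  obtain ⟨u, ⟨l, hl⟩, huX, huC⟩ := exists_ppow_normalizing h hCi hyN hyC hyc hy hM hqm
  have hrQ := hQ (⟨hsC, hsN⟩ : s ∈ M) hsc hs
  have hqQ := hQ (⟨hyC, hyN⟩ : y ∈ M) hyc hy
  have hrX : r ∣ Nat.card (↥X ⧸ C₀) := by
    have := hXp hvX hvC hj ⊤ trivial
    rwa [card_top] at this
  have hqX : q ∣ Nat.card (↥X ⧸ C₀) := by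
    have := hXp huX huC hl ⊤ trivial
    rwa [card_top] at this
  by_cases hr2 : r = 2
  · subst hr2
    exact NormZero.false_of_two hcond hq.out hqr hrQ hqQ hrX hqX
  by_cases hq2 : q = 2
  · subst hq2
    exact NormZero.false_of_two hcond hr.out hr2 hqQ hrQ hqX hrX
  let D : Subgroup (↥X ⧸ C₀) := (N.subgroupOf X).map (QuotientGroup.mk' C₀)
  haveI : (N.subgroupOf X).Normal := Subgroup.normal_subgroupOf
  haveI : D.Normal := Subgroup.Normal.map inferInstance _ (QuotientGroup.mk'_surjective C₀)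
  have hrD : r ∣ Nat.card D :=
    hXp hvX hvC hj D ⟨⟨v, hvX⟩, mem_of_pow_eq_one R hRN hj, rfl⟩
  have hoddD : ¬ 2 ∣ Nat.card D := by
    intro h2
    haveI : Fact (Nat.Prime 2) := ⟨Nat.prime_two⟩
    obtain ⟨⟨d, hd⟩, hdo⟩ := exists_prime_orderOf_dvd_card' 2 h2
    rw [Subgroup.orderOf_mk] at hdo
    obtain ⟨n, hn, rfl⟩ := hd
    set o := ordCompl[2] (orderOf (n : G)) with ho
    have ho1 : ((n : G) ^ o) ^ (2 ^ (orderOf (n : G)).factorization 2) = 1 := by
      rw [← pow_mul, ho, mul_comm, Nat.ordProj_mul_ordCompl_eq_self, pow_orderOf_eq_one]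
    have hno : (n : G) ^ o ∈ center G := hodd hr2 hq2 _ (pow_mem hn o) _ ho1
    have hnoC : (n : G) ^ o ∈ C := by
      rw [← hM y hyN hyC hyc]
      exact center_le_C1 y hno
    have h3 : (QuotientGroup.mk' C₀ n) ^ o = 1 := by
      rw [← map_pow, QuotientGroup.mk'_apply, QuotientGroup.eq_one_iff]
      show ((n ^ o : ↥X) : G) ∈ C
      simpa using hnoC
    have h4 := orderOf_dvd_of_pow_eq_one h3
    rw [hdo] at h4
    exact Nat.not_dvd_ordCompl Nat.prime_two (orderOf_pos (n : G)).ne' h4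
  exact NormZero.false_of_odd hcond hr.out hq.out hqr.symm hrQ hqQ D hoddD hrD hqX

theorem isNilpotent [N.Normal] {r : ℕ} [hr : Fact r.Prime] (R : Sylow r G)
    (hR : ¬ (R : Subgroup G) ≤ center G) (hRN : (R : Subgroup G) ≤ N) (h : Cond N m) :
    Group.IsNilpotent N := by
  classical
  by_cases hall : ∀ y ∈ N, ∀ q k : ℕ, q.Prime → q ≠ r → y ^ q ^ k = 1 → y ∈ center G
  · exact nilpotent_of_central hall
  -- choose the prime `2` if possible
  obtain ⟨y, hyN, q, a, hq, hqr, hy, hyc, hodd⟩ : ∃ y ∈ N, ∃ q a : ℕ, q.Prime ∧ q ≠ r ∧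
      y ^ q ^ a = 1 ∧ y ∉ center G ∧
      (r ≠ 2 → q ≠ 2 → ∀ z ∈ N, ∀ k, z ^ 2 ^ k = 1 → z ∈ center G) := by
    push Not at hall
    obtain ⟨y, hyN, q, a, hq, hqr, hy, hyc⟩ := hall
    by_cases h2 : ∃ z ∈ N, ∃ k, z ^ 2 ^ k = 1 ∧ z ∉ center G
    · by_cases hr2 : r = 2
      · exact ⟨y, hyN, q, a, hq, hqr, hy, hyc, fun hn => absurd hr2 hn⟩
      · obtain ⟨z, hzN, k, hz, hzc⟩ := h2
        exact ⟨z, hzN, 2, k, Nat.prime_two, Ne.symm hr2, hz, hzc, fun _ hn => absurd rfl hn⟩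
    · refine ⟨y, hyN, q, a, hq, hqr, hy, hyc, fun _ _ z hzN k hz => ?_⟩
      by_contra hzc
      exact h2 ⟨z, hzN, k, hz, hzc⟩
  haveI := Fact.mk hq
  obtain ⟨s, hsC, ⟨b, hs⟩, hsc⟩ := exists_noncentral_rElement h R hR hRN hyN hyc
  have hsN : s ∈ N := mem_of_pow_eq_one R hRN hs
  have hcom : Commute y s := (mem_C1.1 hsC).symm
  have hCs : C1 s = C1 y := by
    obtain ⟨h1, h2⟩ := pElement_coprime_zpowers hcom hq hr.out hqr hy hs
    have hn : y * s ∉ center G := fun hc => hyc (zpowers_le.2 hc h1)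
    rw [← h.C1_eq (mul_mem hyN hsN) hn hyN hyc (C1_le_of_mem_zpowers h1)]
    exact (h.C1_eq (mul_mem hyN hsN) hn hsN hsc (C1_le_of_mem_zpowers h2)).symm
  have hMC : ∀ c ∈ N, c ∈ C1 y → c ∉ center G → C1 c = C1 y := by
    -- prime powers of `C ∩ N` are centralised by `C`
    have hle : C1 y ⊓ N ≤ centralizer ((C1 y : Subgroup G) : Set G) := by
      refine le_of_prime_power_mem fun t ht c hc hk => mem_centralizer_iff.2 fun g hg => ?_
      obtain ⟨k, hk⟩ := hk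
      by_cases hcc : c ∈ center G
      · exact mem_center_iff.1 hcc g
      have hk' : c ^ t ^ k = 1 := hk ▸ pow_orderOf_eq_one c
      refine mem_C1.1 ?_
      by_cases htq : t = q
      · subst htq
        have hcs : Commute c s := mem_C1.1 (hCs.symm ▸ hc.1)
        obtain ⟨h1, h2⟩ := pElement_coprime_zpowers hcs ht hr.out hqr hk' hs
        have hn : c * s ∉ center G := fun hc' => hcc (zpowers_le.2 hc' h1)
        rw [← h.C1_eq (mul_mem hc.2 hsN) hn hc.2 hcc (C1_le_of_mem_zpowers h1),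
          h.C1_eq (mul_mem hc.2 hsN) hn hsN hsc (C1_le_of_mem_zpowers h2), hCs]
        exact hg
      · have hcy : Commute c y := mem_C1.1 hc.1
        obtain ⟨h1, h2⟩ := pElement_coprime_zpowers hcy ht hq htq hk' hy
        have hn : c * y ∉ center G := fun hc' => hcc (zpowers_le.2 hc' h1)
        rw [← h.C1_eq (mul_mem hc.2 hyN) hn hc.2 hcc (C1_le_of_mem_zpowers h1),
          h.C1_eq (mul_mem hc.2 hyN) hn hyN hyc (C1_le_of_mem_zpowers h2)]
        exact hg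
    intro c hcN hc hcc
    refine (h.C1_eq hyN hyc hcN hcc fun g hg => ?_).symm
    exact mem_C1.2 (mem_centralizer_iff.1 (hle ⟨hc, hcN⟩) g hg)
  have habel : ∀ x ∈ C1 y ⊓ N, ∀ z ∈ C1 y ⊓ N, x * z = z * x := by
    intro x hx z hz
    by_cases hzc : z ∈ center G
    · exact mem_center_iff.1 hzc x
    · exact mem_C1.1 ((hMC z hz.2 hz.1 hzc).symm ▸ hx.1)
  have hcase : ∀ (ℓ : ℕ) [Fact ℓ.Prime] (c : G) (k : ℕ), c ∈ N → c ^ ℓ ^ k = 1 → C1 c = C1 y →
      ¬ ℓ ∣ m → Group.IsNilpotent N := by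
    intro ℓ _ c k hcN hc hCc hd
    refine nilpotent_of_comm fun x hx z hz => ?_
    have hle : N ≤ C1 y ⊓ N := le_of_not_dvd h inf_le_right
      (le_inf (inf_le_left.trans (center_le_C1 y)) inf_le_right) hcN hc
      (fun w hwN hw => ⟨hCc ▸ hw, hwN⟩) hd
    exact habel x (hle hx) z (hle hz)
  by_cases hrm : r ∣ m
  · by_cases hqm : q ∣ m
    · exact (false_of_dvd (h y hyN hyc) h R hRN hMC hqr hodd hyN (self_mem_C1 y) hyc hy hsN hsC hsc hs
        hrm hqm).elim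
    · exact hcase q y a hyN hy rfl hqm
  · exact hcase r s b hsN hs hCs hrm

end Cfsg.Agent.Lib.Hall.RelTwoClass
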