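import Cfsg.Agent.Lib.Hall.CoprimeProduct
import Cfsg.Agent.S0560

/-! Kegel–Wielandt: a product of two nilpotent subgroups is solvable, and its consequences. -/

set_option autoImplicit false

namespace Cfsg.Agent.Lib.Hall.KegelWielandt

open scoped Pointwise commutatorElement
open Subgroup Cfsg.Agent.Lib.Coprime Cfsg

universe u

variable {G : Type u} [Group G]

/-- If `O_p(G) = 1` and the `p`-subgroup `A` permutes with all conjugates of the `p`-subgroup `B`, then
`A` centralises the normal closure of `B`. -/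
theorem centralizes_normalClosure [Finite G] {p : ℕ} [hp : Fact p.Prime] (hO : pCore p G = ⊥)
    {A B : Subgroup G} (hA : IsPGroup p A) (hB : IsPGroup p B)
    (h : ∀ x : G, (A : Set G) * ((MulAut.conj x • B : Subgroup G) : Set G) =
      ((MulAut.conj x • B : Subgroup G) : Set G) * (A : Set G)) :
    A ≤ centralizer ((normalClosure (B : Set G) : Subgroup G) : Set G) := by
  suffices key : ∀ n : ℕ, ∀ A : Subgroup G, IsPGroup p A → Nat.card G - Nat.card A = n →
      (∀ x : G, (A : Set G) * ((MulAut.conj x • B : Subgroup G) : Set G) =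
        ((MulAut.conj x • B : Subgroup G) : Set G) * (A : Set G)) →
      A ≤ centralizer ((normalClosure (B : Set G) : Subgroup G) : Set G) from key _ A hA rfl h
  intro n
  induction n using Nat.strong_induction_on with
  | _ n ih => ?_
  intro A hA hn h
  by_cases hstep : ∃ x y : G, y ∈ MulAut.conj x • B ∧ MulAut.conj y • A ≠ A
  · obtain ⟨x, y, hy, hne⟩ := hstep
    have hperm' : ∀ z : G, ((MulAut.conj y • A : Subgroup G) : Set G) * ((MulAut.conj z • B : Subgroup G) : Set G)
        = ((MulAut.conj z • B : Subgroup G) : Set G) * ((MulAut.conj y • A : Subgroup G) : Set G) := by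
      intro z
      have h1 := congrArg (fun s : Set G => MulAut.conj y • s) (h (y⁻¹ * z))
      simp only [smul_mul', ← Subgroup.coe_pointwise_smul, conj_smul_mul, conj_smul_inv_smul] at h1
      exact h1
    set A' := A ⊔ MulAut.conj y • A with hA'
    have hlt : A < A' := lt_of_le_of_ne le_sup_left fun he => hne <| by
      have hle : MulAut.conj y • A ≤ A := (le_sup_right : MulAut.conj y • A ≤ A').trans he.ge
      exact eq_of_le_of_card_ge hle (le_of_eq (card_conj_smul y A).symm)
    have hsupp : IsPGroup p ↥(A ⊔ MulAut.conj x • B) := by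
      obtain ⟨a, ha⟩ := IsPGroup.iff_card.mp hA
      obtain ⟨b, hb⟩ := IsPGroup.iff_card.mp (isPGroup_conj_smul hB x)
      refine IsPGroup.of_card_dvd_pow (n := a + b) ?_
      have h1 := card_coe_mul_mul_card_inf A (MulAut.conj x • B)
      rw [← coe_sup_of_permute (h x), ha, hb, ← pow_add] at h1
      exact ⟨_, h1.symm⟩
    have hA'p : IsPGroup p A' := by
      refine hsupp.to_le (sup_le le_sup_left fun g hg => ?_)
      have hyS : y ∈ A ⊔ MulAut.conj x • B := mem_sup_right hy
      have := mul_mem (mul_mem hyS (mem_sup_left (mem_conj_smul.mp hg))) (inv_mem hyS)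
      simpa [mul_assoc] using this
    refine hlt.le.trans (ih (Nat.card G - Nat.card A') ?_ A' hA'p rfl fun z => ?_)
    · have h1 : Nat.card A < Nat.card A' := by
        refine lt_of_le_of_ne (card_le_of_le hlt.le) fun he => hlt.ne ?_
        exact eq_of_le_of_card_ge hlt.le he.ge
      have h2 := card_le_card_group A'
      omega
    · rw [hA']; exact Cfsg.Agent.S0566.perm_sup (h z) (hperm' z)
  · push_neg at hstep
    set N := normalClosure (B : Set G) with hN
    have hNA : N ≤ normalizer (A : Set G) := by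
      refine (closure_le _).mpr fun g hg => ?_
      obtain ⟨b, hb, hbg⟩ := Group.mem_conjugatesOfSet_iff.mp hg
      obtain ⟨c, hc⟩ := isConj_iff.mp hbg
      exact mem_normalizer_of_conj_smul_eq (hstep c g (hc ▸ conj_mem_conj_smul hb))
    haveI : N.Normal := normalClosure_normal
    have hdisj : A ⊓ N = ⊥ := by
      haveI : ((A ⊓ N).subgroupOf N).Normal :=
        (normal_subgroupOf_iff_le_normalizer inf_le_right).mpr fun g hg => mem_normalizer_of_conj_smul_eq (by
          rw [conj_smul_inf, conj_smul_eq_self (hNA hg), conj_smul_of_normal N])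
      have h1 : (A ⊓ N).subgroupOf N ≤ pCore p N :=
        le_pCore ((hA.to_le inf_le_left).of_equiv (subgroupOfEquivOfLe inf_le_right).symm)
      haveI : (pCore p N).Characteristic := characteristic_iff_map_eq.mpr fun e => map_pCore_equiv p e
      haveI : ((pCore p N).map N.subtype).Normal := ConjAct.normal_of_characteristic_of_normal
      have h2 := (map_mono (f := N.subtype) h1).trans (le_pCore ((isPGroup_pCore p).map N.subtype))
      rwa [map_subgroupOf_eq_of_le inf_le_right, hO, le_bot_iff] at h2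
    intro a ha
    rw [mem_centralizer_iff]
    intro g hg
    have h1 : g * a * g⁻¹ * a⁻¹ ∈ A ⊓ N := by
      refine mem_inf.mpr ⟨A.mul_mem ((mem_normalizer_iff.mp (hNA hg) a).mp ha) (A.inv_mem ha), ?_⟩
      rw [mul_assoc, mul_assoc, ← mul_assoc a]
      exact N.mul_mem hg (Normal.conj_mem inferInstance _ (N.inv_mem hg) a)
    rw [hdisj, mem_bot, mul_inv_eq_one, mul_inv_eq_iff_eq_mul] at h1
    exact h1

theorem isPGroup_sylow_map {H : Subgroup G} {p : ℕ} (P : Sylow p H) :
    IsPGroup p ((P : Subgroup H).map H.subtype : Subgroup G) := P.2.map _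

theorem le_normalizer_sylow_map [Finite G] {H : Subgroup G} (hH : Group.IsNilpotent H) {p : ℕ}
    [hp : Fact p.Prime] (P : Sylow p H) :
    H ≤ normalizer (((P : Subgroup H).map H.subtype : Subgroup G) : Set G) := by
  haveI : (P : Subgroup H).Normal :=
    (Group.isNilpotent_of_finite_tfae.out 0 3 rfl rfl).mp hH p inferInstance P
  have h1 := le_normalizer_map (H := (P : Subgroup H)) H.subtype
  rwa [normalizer_eq_top, ← MonoidHom.range_eq_map, range_subtype] at h1

theorem sylow_map_ne_bot [Finite G] {H : Subgroup G} {p : ℕ} [hp : Fact p.Prime] (P : Sylow p H)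
    (h : p ∣ Nat.card H) : (P : Subgroup H).map H.subtype ≠ ⊥ := fun e => by
  have hP : (P : Subgroup H) = ⊥ := (map_eq_bot_iff_of_injective _ H.subtype_injective).mp e
  have := P.not_dvd_index
  rw [hP, index_bot] at this
  exact this h

theorem solvable_aux (n : ℕ) : ∀ (G : Type u) [Group G] [Finite G], Nat.card G = n →
    ∀ A B : Subgroup G, Group.IsNilpotent A → Group.IsNilpotent B →
      (∀ g : G, ∃ a ∈ A, ∃ b ∈ B, g = a * b) → Group.IsSolvable G := by
  induction n using Nat.strong_induction_on with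
  | _ n ih => ?_
  intro G _ _ hn A B hA hB hfact
  by_cases hcop : (Nat.card A).Coprime (Nat.card B)
  · exact CoprimeProduct.isSolvable A B hA hB hcop hfact
  obtain ⟨p, hp, hpA, hpB⟩ := Nat.Prime.not_coprime_iff_dvd.mp hcop
  haveI := Fact.mk hp
  haveI := hA
  haveI := hB
  have hquot : ∀ K : Subgroup G, [K.Normal] → K ≠ ⊥ → Group.IsSolvable (G ⧸ K) := by
    intro K _ hK
    refine ih _ (hn ▸ card_quotient_lt hK) (G ⧸ K) rfl (A.map (QuotientGroup.mk' K))
      (B.map (QuotientGroup.mk' K)) ?_ ?_ ?_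
    · exact Group.nilpotent_of_surjective ((QuotientGroup.mk' K).subgroupMap A)
        ((QuotientGroup.mk' K).subgroupMap_surjective A)
    · exact Group.nilpotent_of_surjective ((QuotientGroup.mk' K).subgroupMap B)
        ((QuotientGroup.mk' K).subgroupMap_surjective B)
    · intro x
      obtain ⟨g, rfl⟩ := QuotientGroup.mk_surjective x
      obtain ⟨a, ha, b, hb, rfl⟩ := hfact g
      exact ⟨_, mem_map_of_mem _ ha, _, mem_map_of_mem _ hb, rfl⟩
  by_cases hO : pCore p G = ⊥
  swap
  · haveI := hquot (pCore p G) hO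
    haveI : Group.IsNilpotent ↥(pCore p G) := (isPGroup_pCore p).isNilpotent
    exact Group.isSolvable_of_ker_le_range (pCore p G).subtype (QuotientGroup.mk' (pCore p G)) (by simp)
  obtain ⟨P₀, Q₀, R, hR⟩ := Cfsg.Agent.S0560.result A B hfact p
  set P := (P₀ : Subgroup A).map A.subtype
  set Q := (Q₀ : Subgroup B).map B.subtype
  have hPQ : (P : Set G) * (Q : Set G) = (Q : Set G) * (P : Set G) := by
    have h1 := congrArg (fun s : Set G => s⁻¹) hR
    rw [mul_inv_rev, inv_coe_set, inv_coe_set, inv_coe_set] at h1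
    exact hR.symm.trans h1
  have hperm : ∀ x : G, (P : Set G) * ((MulAut.conj x • Q : Subgroup G) : Set G) =
      ((MulAut.conj x • Q : Subgroup G) : Set G) * (P : Set G) := by
    intro x
    obtain ⟨a, ha, b, hb, rfl⟩ := hfact x
    rw [conj_smul_mul, conj_smul_eq_self (le_normalizer_sylow_map hB Q₀ hb)]
    have h1 := congrArg (fun s : Set G => MulAut.conj a • s) hPQ
    simp only [smul_mul', ← Subgroup.coe_pointwise_smul] at h1
    rw [show MulAut.conj a • P = P from conj_smul_eq_self (le_normalizer_sylow_map hA P₀ ha)] at h1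
    exact h1
  have hc := centralizes_normalClosure hO (isPGroup_sylow_map P₀) (isPGroup_sylow_map Q₀) hperm
  set N := normalClosure (Q : Set G)
  haveI : N.Normal := normalClosure_normal
  set C := centralizer (N : Set G)
  haveI : C.Normal := normal_centralizer
  have hN1 : N ≠ ⊥ := fun e => sylow_map_ne_bot Q₀ hpB (eq_bot_iff.mpr (e ▸ le_normalClosure))
  have hC1 : C ≠ ⊥ := fun e => sylow_map_ne_bot P₀ hpA (eq_bot_iff.mpr (e ▸ hc))
  haveI := hquot N hN1
  haveI := hquot C hC1
  -- `N ∩ C` is abelian, and `G / (N ∩ C)` embeds in `G/N × G/C`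
  let f : G →* (G ⧸ N) × (G ⧸ C) := (QuotientGroup.mk' N).prod (QuotientGroup.mk' C)
  haveI : Group.IsSolvable ↥(N ⊓ C) := Group.isSolvable_of_comm fun u v => Subtype.ext
    ((mem_centralizer_iff.mp v.2.2) u u.2.1)
  refine Group.isSolvable_of_ker_le_range (N ⊓ C).subtype f fun x hx => ?_
  rw [range_subtype]
  simp only [f, MonoidHom.mem_ker, MonoidHom.prod_apply, Prod.mk_eq_one, QuotientGroup.mk'_apply,
    QuotientGroup.eq_one_iff] at hx
  exact mem_inf.mpr hx

/-- **Kegel–Wielandt.** -/
theorem isSolvable [Finite G] (A B : Subgroup G) (hA : Group.IsNilpotent A) (hB : Group.IsNilpotent B)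
    (hfact : ∀ g : G, ∃ a ∈ A, ∃ b ∈ B, g = a * b) : Group.IsSolvable G :=
  solvable_aux _ G rfl A B hA hB hfact

theorem exists_normal_of_nilpotent [Finite G] [Group.IsNilpotent G] {A : Subgroup G} (hA : A ≠ ⊤) :
    ∃ N : Subgroup G, N.Normal ∧ N ≠ ⊤ ∧ A ≤ N := by
  obtain ⟨M, hM, hAM⟩ := (eq_top_or_exists_le_coatom A).resolve_left hA
  exact ⟨M, NormalizerCondition.normal_of_coatom M Group.normalizerCondition_of_isNilpotent hM, hM.1, hAM⟩

theorem normal_ge_aux (n : ℕ) : ∀ (G : Type u) [Group G] [Finite G], Nat.card G = n →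
    ∀ A B : Subgroup G, Group.IsNilpotent A → Group.IsNilpotent B →
      (∀ g : G, ∃ a ∈ A, ∃ b ∈ B, g = a * b) → (A ≠ ⊤ ∨ B ≠ ⊤) →
      ∃ N : Subgroup G, N.Normal ∧ N ≠ ⊤ ∧ (A ≤ N ∨ B ≤ N) := by
  induction n using Nat.strong_induction_on with
  | _ n ih => ?_
  intro G _ _ hn A B hA hB hfact hprop
  haveI := hA
  haveI := hB
  haveI : Group.IsSolvable G := isSolvable A B hA hB hfact
  by_cases hAt : A = ⊤
  · subst hAt
    haveI : Group.IsNilpotent G := Group.nilpotent_of_mulEquiv topEquiv
    obtain ⟨N, h1, h2, h3⟩ := exists_normal_of_nilpotent (hprop.resolve_left (not_not_intro rfl))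
    exact ⟨N, h1, h2, Or.inr h3⟩
  have hlift : ∀ K : Subgroup G, [K.Normal] → K ≠ ⊥ → (A ⊔ K ≠ ⊤ ∨ B ⊔ K ≠ ⊤) →
      ∃ N : Subgroup G, N.Normal ∧ N ≠ ⊤ ∧ (A ≤ N ∨ B ≤ N) := by
    intro K _ hK hor
    have hsurj := QuotientGroup.mk'_surjective K
    have htop : ∀ X : Subgroup G, X ⊔ K ≠ ⊤ → X.map (QuotientGroup.mk' K) ≠ ⊤ := fun X hX e => hX (by
      have := congrArg (Subgroup.comap (QuotientGroup.mk' K)) e
      rwa [comap_map_eq, QuotientGroup.ker_mk', comap_top] at this)
    obtain ⟨N, hN, hNt, hNl⟩ := ih _ (hn ▸ card_quotient_lt hK) (G ⧸ K) rfl (A.map (QuotientGroup.mk' K))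
      (B.map (QuotientGroup.mk' K))
      (Group.nilpotent_of_surjective ((QuotientGroup.mk' K).subgroupMap A)
        ((QuotientGroup.mk' K).subgroupMap_surjective A))
      (Group.nilpotent_of_surjective ((QuotientGroup.mk' K).subgroupMap B)
        ((QuotientGroup.mk' K).subgroupMap_surjective B))
      (fun x => by
        obtain ⟨g, rfl⟩ := QuotientGroup.mk_surjective x
        obtain ⟨a, ha, b, hb, rfl⟩ := hfact g
        exact ⟨_, mem_map_of_mem _ ha, _, mem_map_of_mem _ hb, rfl⟩)
      (hor.imp (htop A) (htop B))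
    refine ⟨N.comap (QuotientGroup.mk' K), hN.comap _, fun e => hNt ?_,
      hNl.imp map_le_iff_le_comap.mp map_le_iff_le_comap.mp⟩
    rw [← map_comap_eq_self_of_surjective hsurj N, e, map_top_of_surjective _ hsurj]
  haveI : Nontrivial G := by
    by_contra hc
    rw [not_nontrivial_iff_subsingleton] at hc
    exact hAt (Subsingleton.elim _ _)
  obtain ⟨N, p, hNn, hN1, hp, hNp, -, -⟩ := exists_normal_pgroup (G := G)
  haveI := Fact.mk hp
  by_cases hAN : A ⊔ N = ⊤
  swap
  · exact hlift N hN1 (Or.inl hAN)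
  by_cases hBN : B ⊔ N = ⊤
  swap
  · exact hlift N hN1 (Or.inr hBN)
  obtain ⟨f, hf⟩ := IsPGroup.iff_card.mp hNp
  have hidx : ∀ X : Subgroup G, X ⊔ N = ⊤ → X.index ∣ p ^ f := fun X hX => by
    have h : X.relIndex N = X.index := by
      rw [relIndex_left_sup le_normalizer_of_normal, hX, relIndex_top_right]
    rw [← h, ← hf]; exact index_dvd_card _
  by_cases hr : ∃ r : ℕ, r.Prime ∧ r ≠ p ∧ r ∣ Nat.card A
  · obtain ⟨r, hr, hrp, hrA⟩ := hr
    haveI := Fact.mk hr
    have hnd : ∀ X : Subgroup G, X ⊔ N = ⊤ → ¬ r ∣ X.index := fun X hX h =>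
      hrp ((Nat.prime_dvd_prime_iff_eq hr hp).mp (hr.dvd_of_dvd_pow (h.trans (hidx X hX))))
    obtain ⟨P₀⟩ := (inferInstance : Nonempty (Sylow r A))
    obtain ⟨Q₀⟩ := (inferInstance : Nonempty (Sylow r B))
    have hsyl : ∀ (X : Subgroup G), X ⊔ N = ⊤ → ∀ P : Sylow r X, ¬ r ∣ ((P : Subgroup X).map X.subtype).index := by
      intro X hX P h
      rw [index_map_subtype] at h
      exact (hr.dvd_mul.mp h).elim P.not_dvd_index (hnd X hX)
    let R₁ : Sylow r G := (isPGroup_sylow_map P₀).toSylow (hsyl A hAN P₀)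
    let R₂ : Sylow r G := (isPGroup_sylow_map Q₀).toSylow (hsyl B hBN Q₀)
    obtain ⟨g, hg⟩ := MulAction.exists_smul_eq G R₁ R₂
    obtain ⟨a, ha, b, hb, e⟩ := hfact g⁻¹
    set R := (P₀ : Subgroup A).map A.subtype with hR
    have hgR : MulAut.conj g • R = (Q₀ : Subgroup B).map B.subtype := by
      have := congrArg Sylow.toSubgroup hg
      simpa [R₁, R₂, Sylow.coe_subgroup_smul] using this
    have hg' : g = b⁻¹ * a⁻¹ := by rw [← mul_inv_rev, ← e, inv_inv]
    rw [hg', conj_smul_mul, conj_smul_eq_self (le_normalizer_sylow_map hA P₀ (A.inv_mem ha))] at hgR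
    have hBR : B ≤ normalizer (R : Set G) := by
      have h1 : R = (Q₀ : Subgroup B).map B.subtype := by
        have h2 := congrArg (MulAut.conj b • ·) hgR
        simp only [conj_smul_inv_smul] at h2
        rwa [conj_smul_eq_self (le_normalizer_sylow_map hB Q₀ hb)] at h2
      rw [h1]; exact le_normalizer_sylow_map hB Q₀
    haveI : R.Normal := by
      rw [← normalizer_eq_top_iff, eq_top_iff]
      intro x _
      obtain ⟨u, hu, v, hv, rfl⟩ := hfact x
      exact mul_mem (le_normalizer_sylow_map hA P₀ hu) (hBR hv)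
    refine hlift R (sylow_map_ne_bot P₀ hrA) (Or.inl ?_)
    rwa [sup_eq_left.mpr (map_subtype_le _)]
  · push_neg at hr
    have hAp : IsPGroup p A := by
      refine IsPGroup.of_card (n := (Nat.card A).primeFactorsList.length) ?_
      exact Nat.eq_prime_pow_of_unique_prime_dvd Nat.card_pos.ne' fun {q} hq hqd =>
        not_not.mp fun hne => hr q hq hne hqd
    haveI : Group.IsNilpotent G := by
      have hG : IsPGroup p G := by
        have h1 : IsPGroup p ↥(A ⊔ N) := isPGroup_sup_of_normal hAp hNp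
        rw [hAN] at h1
        exact h1.of_equiv topEquiv
      exact hG.isNilpotent
    obtain ⟨M, h1, h2, h3⟩ := exists_normal_of_nilpotent hAt
    exact ⟨M, h1, h2, Or.inl h3⟩

end Cfsg.Agent.Lib.Hall.KegelWielandt
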