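import Mathlib
import Cfsg.Prelude.Def_Local
import Cfsg.Agent.Lib.Coprime.Conjugacy

/-!
`p`-solvable groups whose maximal subgroups are `p`-nilpotent or of prime index.
-/

set_option autoImplicit false

namespace Cfsg.Agent.Lib.Hall.MaxPNil

open Subgroup
open scoped Pointwise

universe u

/-- A normal series `1 ≤ A ≤ B ≤ C ≤ G` with factors `p'`, `p`, `p'`, `p`. -/
def Ser (p : ℕ) (G : Type u) [Group G] : Prop :=
  ∃ A B C : Subgroup G, A.Normal ∧ B.Normal ∧ C.Normal ∧ A ≤ B ∧ B ≤ C ∧ ¬ p ∣ Nat.card A ∧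
    (∃ k : ℕ, A.relIndex B = p ^ k) ∧ ¬ p ∣ B.relIndex C ∧ ∃ k : ℕ, C.index = p ^ k

/-- Every maximal subgroup is `p`-nilpotent or of prime index. -/
def MaxCond (p : ℕ) (G : Type u) [Group G] : Prop :=
  ∀ M : Subgroup G, IsCoatom M →
    (∃ K : Subgroup ↥M, K.Normal ∧ ¬ p ∣ Nat.card K ∧ ∃ k : ℕ, K.index = p ^ k) ∨ (M.index).Prime

variable {p : ℕ} [hp : Fact p.Prime]

theorem prime_ne_dvd {n k : ℕ} (h : n ∣ p ^ k) : ∃ j, n = p ^ j :=
  let ⟨j, _, hj⟩ := (Nat.dvd_prime_pow hp.out).1 h
  ⟨j, hj⟩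

theorem relIndex_comap_dvd {G H : Type u} [Group G] [Finite G] [Group H] [Finite H] (f : G →* H)
    {A B : Subgroup H} [A.Normal] :
    (A.comap f).relIndex (B.comap f) ∣ A.relIndex B := by
  rw [relIndex_comap]
  have h : ∀ X : Subgroup H, A.relIndex X = Nat.card (X.map (QuotientGroup.mk' A)) := fun X => by
    conv_lhs => rw [← QuotientGroup.ker_mk' A]
    rw [relIndex_ker]
  rw [h, h]
  exact card_dvd_of_le (map_mono (map_comap_le f B))

theorem ser_of_injective {G H : Type u} [Group G] [Finite G] [Group H] [Finite H] (f : G →* H)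
    (hf : Function.Injective f) (h : Ser p H) : Ser p G := by
  obtain ⟨A, B, C, hA, hB, hC, hAB, hBC, h1, ⟨k, h2⟩, h3, ⟨l, h4⟩⟩ := h
  refine ⟨A.comap f, B.comap f, C.comap f, hA.comap f, hB.comap f, hC.comap f,
    comap_mono hAB, comap_mono hBC, fun hd => h1 ?_, ?_, fun hd => h3 (hd.trans (relIndex_comap_dvd f)), ?_⟩
  · refine hd.trans ?_
    rw [← card_map_of_injective hf]
    exact card_dvd_of_le (map_comap_le f A)
  · exact prime_ne_dvd (h2 ▸ relIndex_comap_dvd f)
  · refine prime_ne_dvd (k := l) (h4 ▸ ?_)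
    rw [← relIndex_top_right, ← relIndex_top_right (H := C)]
    have := relIndex_comap_dvd f (A := C) (B := ⊤)
    rwa [comap_top] at this

theorem ser_prod {H K : Type u} [Group H] [Finite H] [Group K] [Finite K] (h : Ser p H) (h' : Ser p K) :
    Ser p (H × K) := by
  obtain ⟨A, B, C, hA, hB, hC, hAB, hBC, h1, ⟨k, h2⟩, h3, ⟨l, h4⟩⟩ := h
  obtain ⟨A', B', C', hA', hB', hC', hAB', hBC', h1', ⟨k', h2'⟩, h3', ⟨l', h4'⟩⟩ := h'
  have hcp : ∀ (X : Subgroup H) (X' : Subgroup K), Nat.card (X.prod X') = Nat.card X * Nat.card X' :=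
    fun X X' => by rw [Nat.card_congr (Subgroup.prodEquiv X X').toEquiv, Nat.card_prod]
  have hrel : ∀ {X Y : Subgroup H} {X' Y' : Subgroup K}, X ≤ Y → X' ≤ Y' →
      (X.prod X').relIndex (Y.prod Y') = X.relIndex Y * X'.relIndex Y' := by
    intro X Y X' Y' hXY hXY'
    have e : ∀ {L : Type u} [Group L] [Finite L] {U V : Subgroup L}, U ≤ V →
        U.relIndex V * Nat.card U = Nat.card V := fun {L} _ _ {U V} hUV => by
      rw [← relIndex_bot_left U, mul_comm, relIndex_mul_relIndex _ _ _ bot_le hUV, relIndex_bot_left]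
    have e1 := e (prod_mono hXY hXY')
    rw [hcp, hcp, ← e hXY, ← e hXY'] at e1
    refine Nat.eq_of_mul_eq_mul_right (Nat.mul_pos (Nat.card_pos (α := X)) (Nat.card_pos (α := X'))) ?_
    rw [e1]; ring
  refine ⟨A.prod A', B.prod B', C.prod C', inferInstance, inferInstance, inferInstance,
    prod_mono hAB hAB', prod_mono hBC hBC', ?_, ⟨k + k', ?_⟩, ?_, ⟨l + l', ?_⟩⟩
  · rw [hcp]; exact fun hd => (hp.out.dvd_mul.1 hd).elim h1 h1'
  · rw [hrel hAB hAB', h2, h2', pow_add]
  · rw [hrel hBC hBC']; exact fun hd => (hp.out.dvd_mul.1 hd).elim h3 h3'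
  · rw [index_prod, h4, h4', pow_add]

theorem maxCond_quotient {G : Type u} [Group G] [Finite G] (h : MaxCond p G) (N : Subgroup G) [N.Normal] :
    MaxCond p (G ⧸ N) := by
  intro M hM
  set f := QuotientGroup.mk' N
  have hf := QuotientGroup.mk'_surjective N
  have hMc : IsCoatom (M.comap f) := by
    refine ⟨fun e => hM.1 ?_, fun T hT => ?_⟩
    · rw [← map_comap_eq_self_of_surjective hf M, e, map_top_of_surjective f hf]
    · have hle : f.ker ≤ T := le_trans (fun x hx => by
        show f x ∈ M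
        rw [MonoidHom.mem_ker.1 hx]
        exact one_mem M) hT.le
      have hlt : M < T.map f := by
        refine lt_of_le_of_ne ?_ fun e => hT.ne ?_
        · rw [← map_comap_eq_self_of_surjective hf M]; exact map_mono hT.le
        · rw [e, comap_map_eq, sup_eq_left.2 hle]
      rw [← sup_eq_left.2 hle, ← comap_map_eq, hM.2 _ hlt, comap_top]
  rcases h _ hMc with ⟨K, hK, hKp, k, hk⟩ | hpr
  · left
    let g : ↥(M.comap f) →* ↥M := f.subgroupComap M
    have hg : Function.Surjective g := fun ⟨y, hy⟩ => by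
      obtain ⟨x, rfl⟩ := hf y
      exact ⟨⟨x, hy⟩, rfl⟩
    refine ⟨K.map g, hK.map g hg, fun hd => hKp (hd.trans (card_map_dvd K g)), ?_⟩
    exact prime_ne_dvd (k := k) (hk ▸ index_map_dvd K hg)
  · right
    rwa [index_comap_of_surjective M hf] at hpr

theorem exists_minimal_normal {G : Type u} [Group G] [Finite G] [Nontrivial G] :
    ∃ N : Subgroup G, N.Normal ∧ N ≠ ⊥ ∧ ∀ M : Subgroup G, M.Normal → M ≤ N → M ≠ ⊥ → M = N := by
  classical
  obtain ⟨N, hN⟩ := Set.Finite.exists_minimal (Set.toFinite {N : Subgroup G | N.Normal ∧ N ≠ ⊥})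
    ⟨⊤, inferInstance, top_ne_bot⟩
  exact ⟨N, hN.1.1, hN.1.2, fun M hM hle hne => le_antisymm hle (hN.2 ⟨hM, hne⟩ hle)⟩

theorem minimal_normal_cases {G : Type u} [Group G] [Finite G] (hG : Cfsg.IsPSolvable p G) {N : Subgroup G}
    [hNn : N.Normal] (hNb : N ≠ ⊥) (hmin : ∀ M : Subgroup G, M.Normal → M ≤ N → M ≠ ⊥ → M = N) :
    ¬ p ∣ Nat.card N ∨ IsPGroup p ↥N := by
  obtain ⟨n, H, h0, hlast, hmono, hnor, hfac⟩ := hG
  classical
  have hex : ∃ i : Fin (n + 1), N ≤ H i := ⟨Fin.last n, hlast ▸ le_top⟩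
  obtain ⟨i, hi, hleast⟩ := exists_minimal_of_wellFoundedLT (fun i : Fin (n + 1) => N ≤ H i) hex
  rcases Fin.eq_zero_or_eq_succ i with rfl | ⟨j, rfl⟩
  · exact absurd (le_bot_iff.1 (h0 ▸ hi)) hNb
  have hbot : N ⊓ H j.castSucc = ⊥ := by
    by_contra hne
    haveI := hnor j.castSucc
    have h1 : N ≤ H j.castSucc :=
      inf_eq_left.1 (hmin _ inferInstance inf_le_left hne)
    have := hleast (y := j.castSucc) h1 (Fin.castSucc_lt_succ (i := j)).le
    exact absurd this (not_le.2 (Fin.castSucc_lt_succ (i := j)))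
  have hdvd : Nat.card N ∣ (H j.castSucc).relIndex (H j.succ) := by
    haveI := hnor j.castSucc
    have h : ∀ X : Subgroup G, (H j.castSucc).relIndex X = Nat.card (X.map (QuotientGroup.mk' (H j.castSucc))) :=
      fun X => by
        conv_lhs => rw [← QuotientGroup.ker_mk' (H j.castSucc)]
        rw [relIndex_ker]
    rw [← relIndex_bot_left, ← hbot, inf_comm, inf_relIndex_right, h, h]
    exact card_dvd_of_le (map_mono hi)
  rcases hfac j with ⟨m, hm⟩ | hc
  · right
    obtain ⟨i, hi⟩ := prime_ne_dvd (hm ▸ hdvd)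
    exact IsPGroup.of_card hi
  · left
    exact fun hd => hp.out.ne_one (Nat.eq_one_of_dvd_coprimes hc (hd.trans hdvd) dvd_rfl)

theorem isMulCommutative_of_minimal {G : Type u} [Group G] [Finite G] {N : Subgroup G} [hNn : N.Normal]
    (hNb : N ≠ ⊥) (hmin : ∀ M : Subgroup G, M.Normal → M ≤ N → M ≠ ⊥ → M = N) (hNp : IsPGroup p ↥N) :
    IsMulCommutative ↥N := by
  haveI : Nontrivial ↥N := (Subgroup.nontrivial_iff_ne_bot N).2 hNb
  have hc := hNp.center_nontrivial
  set Z := (Subgroup.center ↥N).map N.subtype with hZ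
  haveI : Z.Normal := ConjAct.normal_of_characteristic_of_normal
  have hZb : Z ≠ ⊥ := fun e => (Subgroup.nontrivial_iff_ne_bot _).1 hc
    ((Subgroup.map_eq_bot_iff_of_injective _ N.subtype_injective).1 e)
  have hZN := hmin Z inferInstance (Subgroup.map_subtype_le _) hZb
  refine ⟨⟨fun a b => ?_⟩⟩
  obtain ⟨c, hc', hca⟩ := (hZN.ge a.2 : (a : G) ∈ Z)
  rw [← Subtype.ext hca]
  exact (Subgroup.mem_center_iff.1 hc' b).symm

/-- The main induction. -/
theorem step (G : Type u) [Group G] [Finite G] (hG : Cfsg.IsPSolvable p G) (hmax : MaxCond p G)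
    (hq : ∀ (N : Subgroup G) [N.Normal], N ≠ ⊥ → Ser p (G ⧸ N)) : Ser p G := by
  classical
  rcases subsingleton_or_nontrivial G with hs | hn
  · refine ⟨⊥, ⊥, ⊤, inferInstance, inferInstance, inferInstance, le_rfl, bot_le, ?_, ⟨0, by simp⟩, ?_, ⟨0, by simp⟩⟩
    · simp [hp.out.ne_one]
    · rw [relIndex_bot_left]; simp [Nat.card_of_subsingleton (1 : G), hp.out.ne_one]
  obtain ⟨N, hNn, hNb, hmin⟩ := exists_minimal_normal (G := G)
  haveI := hNn
  set f := QuotientGroup.mk' N with hfdef
  have hf := QuotientGroup.mk'_surjective N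
  have hcard : ∀ X : Subgroup (G ⧸ N), Nat.card (X.comap f) = Nat.card N * Nat.card X := by
    intro X
    have h := card_mul_index (X.comap f)
    rw [index_comap_of_surjective X hf, ← card_mul_index N, N.index_eq_card, ← card_mul_index X,
      ← mul_assoc] at h
    exact Nat.eq_of_mul_eq_mul_right (Nat.pos_of_ne_zero index_ne_zero_of_finite) h
  obtain ⟨A, B, C, hA, hB, hC, hAB, hBC, h1, h2, h3, h4⟩ := hq N hNb
  have hrel : ∀ X Y : Subgroup (G ⧸ N), (X.comap f).relIndex (Y.comap f) = X.relIndex Y := fun X Y => by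
    rw [relIndex_comap, map_comap_eq_self_of_surjective hf]
  rcases minimal_normal_cases hG hNb hmin with hNp | hNp
  · refine ⟨A.comap f, B.comap f, C.comap f, hA.comap f, hB.comap f, hC.comap f, comap_mono hAB,
      comap_mono hBC, ?_, by rw [hrel]; exact h2, by rw [hrel]; exact h3,
      by rw [index_comap_of_surjective _ hf]; exact h4⟩
    rw [hcard]; exact fun hd => (hp.out.dvd_mul.1 hd).elim hNp h1
  haveI hNab := isMulCommutative_of_minimal hNb hmin hNp
  obtain ⟨kN, hkN⟩ := IsPGroup.iff_card.1 hNp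
  by_cases hphi : N ≤ frattini G
  · -- `N` is contained in the Frattini subgroup
    set A₁ := A.comap f with hA₁
    haveI : A₁.Normal := hA.comap f
    have hNA : N ≤ A₁ := fun x hx => by
      show f x ∈ A
      rw [show f x = 1 from (QuotientGroup.eq_one_iff x).2 hx]; exact one_mem A
    set N₁ := N.subgroupOf A₁ with hN₁
    have hcN : Nat.card N₁ = Nat.card N := Nat.card_congr (subgroupOfEquivOfLe hNA).toEquiv
    have hiN : N₁.index = Nat.card A := by
      have h := card_mul_index N₁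
      rw [hcN, hcard] at h
      exact Nat.eq_of_mul_eq_mul_left Nat.card_pos h
    have hcop : (Nat.card N₁).Coprime N₁.index := by
      rw [hcN, hiN, hkN]; exact (hp.out.coprime_iff_not_dvd.2 h1).pow_left _
    obtain ⟨K, hK⟩ := exists_right_complement'_of_coprime hcop
    haveI : IsMulCommutative ↥N₁ := ⟨⟨fun a b => Subtype.ext (Subtype.ext (by
      show ((a : ↥A₁) : G) * (b : ↥A₁) = (b : ↥A₁) * (a : ↥A₁)
      exact congrArg Subtype.val (mul_comm' (⟨_, a.2⟩ : ↥N) ⟨_, b.2⟩)))⟩⟩
    set K' := K.map A₁.subtype with hK'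
    have hfr : N ⊔ normalizer (K' : Set G) = ⊤ := by
      refine eq_top_iff.2 fun g _ => ?_
      let e : ↥A₁ ≃* ↥A₁ := MulAut.conjNormal g
      have hK2 : IsComplement' N₁ (K.map e.toMonoidHom) := by
        rw [Coprime.isCompl_card_iff hcop, ← Nat.card_congr (equivMapOfInjective K e.toMonoidHom e.injective).toEquiv,
          (Coprime.isCompl_card_iff hcop).1 hK]
      obtain ⟨a, ha, hae⟩ := Coprime.exists_mem_conj_eq_of_abelian N₁ hcop hK hK2
      have hmem : (a : G)⁻¹ * g ∈ normalizer (K' : Set G) := by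
        refine Subgroup.mem_normalizer_iff_map_conj_eq.2 (eq_of_le_of_card_ge ?_ (by
          exact (Nat.card_congr (equivMapOfInjective K' (MulAut.conj ((a : G)⁻¹ * g)).toMonoidHom (MulAut.conj ((a : G)⁻¹ * g)).injective).toEquiv).le))
        rintro _ ⟨_, ⟨x, hx, rfl⟩, rfl⟩
        have h1' : e x ∈ MulAut.conj a • K := by rw [hae]; exact ⟨x, hx, rfl⟩
        rw [Coprime.mem_conj_smul] at h1'
        refine ⟨_, h1', ?_⟩
        show ((a⁻¹ * e x * a : ↥A₁) : G) = (a : G)⁻¹ * g * x * ((a : G)⁻¹ * g)⁻¹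
        rw [Subgroup.coe_mul, Subgroup.coe_mul, Subgroup.coe_inv, MulAut.conjNormal_apply]
        group
      have := mul_mem (mem_sup_left (T := normalizer (K' : Set G)) (show (a : G) ∈ N from ha))
        (mem_sup_right (S := N) hmem)
      simpa using this
    have hKn : normalizer (K' : Set G) = ⊤ := by
      refine frattini_nongenerating (eq_top_iff.2 ?_)
      rw [← hfr, sup_comm]
      exact sup_le_sup le_rfl hphi
    haveI : K'.Normal := normalizer_eq_top_iff.1 hKn
    have hK'p : ¬ p ∣ Nat.card K' := by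
      rw [card_map_of_injective A₁.subtype_injective, (Coprime.isCompl_card_iff hcop).1 hK, hiN]
      exact h1
    by_cases hA1 : A = ⊥
    · subst hA1
      refine ⟨⊥, B.comap f, C.comap f, inferInstance, hB.comap f, hC.comap f, bot_le, comap_mono hBC,
        by simp [hp.out.ne_one], ?_, by rw [hrel]; exact h3, by rw [index_comap_of_surjective _ hf]; exact h4⟩
      obtain ⟨k, hk⟩ := h2
      rw [relIndex_bot_left] at hk
      exact ⟨kN + k, by rw [relIndex_bot_left, hcard, hkN, hk, pow_add]⟩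
    · have hK'b : K' ≠ ⊥ := fun e => hA1 (Subgroup.card_eq_one.1 (by
        rw [← hiN, ← (Coprime.isCompl_card_iff hcop).1 hK, ← card_map_of_injective A₁.subtype_injective, ← hK', e,
          Subgroup.card_bot]))
      have hNK : N ⊓ K' = ⊥ := inf_eq_bot_of_coprime (by
        rw [hkN]; exact (hp.out.coprime_iff_not_dvd.2 hK'p).pow_left _)
      refine ser_of_injective ((QuotientGroup.mk' N).prod (QuotientGroup.mk' K')) ?_
        (ser_prod (hq N hNb) (hq K' hK'b))
      rw [← MonoidHom.ker_eq_bot_iff, MonoidHom.ker_prod, QuotientGroup.ker_mk', QuotientGroup.ker_mk', hNK]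
  -- a maximal subgroup complementing `N`
  obtain ⟨M, hM, hNM⟩ : ∃ M : Subgroup G, IsCoatom M ∧ ¬ N ≤ M := by
    by_contra hcon
    push Not at hcon
    exact hphi (le_iInf₂ fun M hM => hcon M hM)
  have hsup : N ⊔ M = ⊤ := hM.2 _ (lt_of_le_of_ne le_sup_right fun e => hNM (e.symm ▸ le_sup_left))
  have hinf : N ⊓ M = ⊥ := by
    by_contra hne
    haveI : (N ⊓ M).Normal := by
      rw [← normalizer_eq_top_iff, eq_top_iff, ← hsup, sup_le_iff]
      refine ⟨fun a ha => ?_, fun a ha => ?_⟩ <;>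
        refine Subgroup.mem_normalizer_iff_map_conj_eq.2 (eq_of_le_of_card_ge ?_ (by
          rw [card_map_of_injective (MulAut.conj a).injective]))
      · rintro _ ⟨x, hx, rfl⟩
        show a * x * a⁻¹ ∈ N ⊓ M
        rwa [show a * x * a⁻¹ = x by
          rw [congrArg Subtype.val (mul_comm' (⟨a, ha⟩ : ↥N) ⟨x, hx.1⟩) |> fun (e : a * x = x * a) => e]
          group]
      · rintro _ ⟨x, hx, rfl⟩
        exact Subgroup.mem_inf.2 ⟨hNn.conj_mem x hx.1 a, M.mul_mem (M.mul_mem ha hx.2) (M.inv_mem ha)⟩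
    exact hNM (inf_eq_left.1 (hmin _ inferInstance inf_le_left hne))
  have hNM' : Nat.card M * Nat.card N = Nat.card G := by
    rw [← Coprime.card_sup_mul_card_inf N M, sup_comm, hsup, inf_comm, hinf, card_top, Subgroup.card_bot, mul_one]
  have hindex : M.index = Nat.card N := by
    refine Nat.eq_of_mul_eq_mul_left (Nat.card_pos (α := M)) ?_
    rw [card_mul_index, hNM']
  have e1 : N.index = Nat.card M := by
    refine Nat.eq_of_mul_eq_mul_left (Nat.card_pos (α := N)) ?_
    rw [card_mul_index, mul_comm, hNM']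
  rcases hmax M hM with ⟨K, hK, hKp, k, hk⟩ | hprime
  · -- `M` is `p`-nilpotent
    set K' := K.map M.subtype with hK'
    have hK'M : K' ≤ M := map_subtype_le K
    have hMn : M ≤ normalizer (K' : Set G) := by
      intro a ha
      refine Subgroup.mem_normalizer_iff_map_conj_eq.2 (eq_of_le_of_card_ge ?_
        (Nat.card_congr (equivMapOfInjective K' (MulAut.conj a).toMonoidHom (MulAut.conj a).injective).toEquiv).le)
      rintro _ ⟨_, ⟨x, hx, rfl⟩, rfl⟩
      exact ⟨_, hK.conj_mem x hx ⟨a, ha⟩, rfl⟩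
    haveI hCn : (N ⊔ K').Normal := by
      rw [← normalizer_eq_top_iff, eq_top_iff, ← hsup, sup_le_iff]
      refine ⟨le_trans le_sup_left le_normalizer, fun a ha => ?_⟩
      refine Subgroup.mem_normalizer_iff_map_conj_eq.2 ?_
      rw [Subgroup.map_sup, Subgroup.mem_normalizer_iff_map_conj_eq.1 (hMn ha),
        Subgroup.mem_normalizer_iff_map_conj_eq.1 (show a ∈ normalizer (N : Set G) by
          rw [normalizer_eq_top]; exact mem_top a)]
    have hNK : N ⊓ K' = ⊥ := le_bot_iff.1 (hinf ▸ inf_le_inf_left N hK'M)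
    have hrelK : N.relIndex (N ⊔ K') = Nat.card K' := by
      rw [sup_comm, relIndex_sup_right, ← inf_relIndex_right, hNK, relIndex_bot_left]
    refine ⟨⊥, N, N ⊔ K', inferInstance, hNn, hCn, bot_le, le_sup_left, by simp [hp.out.ne_one],
      ⟨kN, by rw [relIndex_bot_left, hkN]⟩, ?_, ⟨k, ?_⟩⟩
    · rw [hrelK, card_map_of_injective M.subtype_injective]; exact hKp
    · have e2 := relIndex_mul_index (le_sup_left : N ≤ N ⊔ K')
      rw [hrelK, e1, ← card_mul_index K, card_map_of_injective M.subtype_injective] at e2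
      rw [← hk]
      exact Nat.eq_of_mul_eq_mul_left Nat.card_pos e2
  · -- prime index
    rw [hindex] at hprime
    set D := M ⊓ centralizer (N : Set G) with hD
    by_cases hD1 : D = ⊥
    · refine ⟨⊥, N, ⊤, inferInstance, hNn, inferInstance, bot_le, le_top, by simp [hp.out.ne_one],
        ⟨kN, by rw [relIndex_bot_left, hkN]⟩, ?_, ⟨0, by simp⟩⟩
      rw [relIndex_top_right]
      have hNc : Nat.card N = p := by
        rw [hkN] at hprime ⊢
        rw [Nat.Prime.eq_one_of_pow hprime, pow_one]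
      haveI : IsCyclic ↥N := isCyclic_of_prime_card hNc
      let φ : ↥M →* MulAut ↥N := MulAut.conjNormal.comp M.subtype
      have hker : φ.ker = ⊥ := by
        rw [eq_bot_iff]
        intro a ha
        rw [MonoidHom.mem_ker, MulEquiv.ext_iff] at ha
        have : (a : G) ∈ D := ⟨a.2, mem_centralizer_iff.2 fun x hx => by
          have h := congrArg Subtype.val (ha ⟨x, hx⟩)
          rw [show φ a = MulAut.conjNormal (a : G) from rfl, MulAut.conjNormal_apply] at h
          exact (mul_inv_eq_iff_eq_mul.1 h).symm⟩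
        rw [hD1, mem_bot] at this
        exact mem_bot.2 (Subtype.ext this)
      have hdvd : Nat.card M ∣ p - 1 := by
        haveI : NeZero (Nat.card ↥N) := ⟨Nat.card_pos.ne'⟩
        rw [← Nat.totient_prime hp.out, ← hNc, ← ZMod.card_units_eq_totient, ← Nat.card_eq_fintype_card,
          ← Nat.card_congr (IsCyclic.mulAutMulEquiv ↥N).toEquiv]
        exact card_dvd_of_injective φ (φ.ker_eq_bot_iff.1 hker)
      rw [e1]
      intro hd
      have := Nat.le_of_dvd (by have := hp.out.two_le; omega) (hd.trans hdvd)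
      have := hp.out.two_le
      omega
    · haveI hDn : D.Normal := by
        rw [← normalizer_eq_top_iff, eq_top_iff, ← hsup, sup_le_iff]
        refine ⟨fun a ha => ?_, fun a ha => ?_⟩ <;>
          refine Subgroup.mem_normalizer_iff_map_conj_eq.2 (eq_of_le_of_card_ge ?_ (by
            rw [card_map_of_injective (MulAut.conj a).injective]))
        · rintro _ ⟨x, hx, rfl⟩
          show a * x * a⁻¹ ∈ D
          rwa [mem_centralizer_iff.1 hx.2 a ha, mul_inv_cancel_right]
        · rintro _ ⟨x, hx, rfl⟩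
          exact Subgroup.mem_inf.2 ⟨M.mul_mem (M.mul_mem ha hx.1) (M.inv_mem ha),
            (inferInstance : (centralizer (N : Set G)).Normal).conj_mem x hx.2 a⟩
      refine ser_of_injective ((QuotientGroup.mk' N).prod (QuotientGroup.mk' D)) ?_
        (ser_prod (hq N hNb) (hq D hD1))
      rw [← MonoidHom.ker_eq_bot_iff, MonoidHom.ker_prod, QuotientGroup.ker_mk', QuotientGroup.ker_mk',
        eq_bot_iff, ← hinf]
      exact inf_le_inf_left N inf_le_left

theorem isPSolvable_of_surjective {G H : Type*} [Group G] [Finite G] [Group H]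
    {f : G →* H} (hf : Function.Surjective f) (h : Cfsg.IsPSolvable p G) : Cfsg.IsPSolvable p H := by
  obtain ⟨n, K, h0, hn, hm, hN, hi⟩ := h
  refine ⟨n, fun i => (K i).map f, by simp [h0],
    by simp [hn, Subgroup.map_top_of_surjective f hf], fun i j hij => Subgroup.map_mono (hm hij),
    fun i => (hN i).map f hf, fun i => ?_⟩
  have hle : K i.castSucc ≤ K i.succ := hm (Fin.castSucc_le_succ i)
  have hd : ((K i.castSucc).map f).relIndex ((K i.succ).map f) ∣
      (K i.castSucc).relIndex (K i.succ) := by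
    have := hN i.castSucc
    rw [Subgroup.relIndex_map_map,
      show K i.succ ⊔ f.ker = K i.succ ⊔ (K i.castSucc ⊔ f.ker) by
        rw [← sup_assoc, sup_eq_left.2 hle],
      Subgroup.relIndex_sup_right]
    exact Subgroup.relIndex_dvd_of_le_left _ le_sup_left
  rcases hi i with ⟨m, hm'⟩ | hc
  · obtain ⟨t, -, ht⟩ := (Nat.dvd_prime_pow (Fact.out : p.Prime)).1 (hm' ▸ hd)
    exact Or.inl ⟨t, ht⟩
  · exact Or.inr (hc.coprime_dvd_left hd)

/-- A `p`-solvable group whose maximal subgroups are `p`-nilpotent or of prime index has a series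
`1 ≤ A ≤ B ≤ C ≤ G` with factors `p'`, `p`, `p'`, `p`. -/
theorem ser_of_maxCond (n : ℕ) : ∀ (G : Type u) [Group G] [Finite G], Nat.card G ≤ n →
    Cfsg.IsPSolvable p G → MaxCond p G → Ser p G := by
  induction n with
  | zero => intro G _ _ h; exact absurd h (by have := Nat.card_pos (α := G); omega)
  | succ n ih =>
    intro G _ _ h hG hmax
    refine step G hG hmax fun N _ hN => ih _ ?_
      (isPSolvable_of_surjective (QuotientGroup.mk'_surjective N) hG) (maxCond_quotient hmax N)
    have := Coprime.card_quotient_lt hN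
    omega

end Cfsg.Agent.Lib.Hall.MaxPNil
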