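import Cfsg.Agent.Lib.Hall.OddRankTwo
import Cfsg.Prelude.Def_OddOrderLocal

/-!
Narrow `p`-groups of rank at least three (`p` odd): every characteristic subgroup of exponent `p` inside a
critical subgroup has a small top factor, so automorphism groups of odd order are nearly abelian.
-/

set_option autoImplicit false

namespace Cfsg.Agent.Lib.Hall

open Subgroup Cfsg.Agent.Lib
open scoped commutatorElement Pointwise

universe u

variable {R : Type u} [Group R] [Finite R] {p : ℕ} [hp : Fact p.Prime]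

/-- Lagrange's theorem for a relative index. -/
theorem card_mul_relIndex' {R : Type u} [Group R] {N' N : Subgroup R} (h : N' ≤ N) :
    Nat.card N' * N'.relIndex N = Nat.card N := by
  rw [← Lib.Coprime.card_subgroupOf h, relIndex, card_mul_index]

/-- The data of a narrow `p`-group of rank at least three. -/
structure NarrowData (p : ℕ) (R : Type u) [Group R] where
  x : R
  z : R
  hxp : x ^ p = 1
  hzp : z ^ p = 1
  hz1 : z ≠ 1
  hzc : z ∈ center R
  hxz : x ∉ zpowers z
  /-- elements of order `p` commuting with `x` -/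
  small : ∀ y : R, y ^ p = 1 → y * x = x * y → y ∈ zpowers x ⊔ zpowers z
  /-- `⟨x, z⟩` is not normal -/
  notNormal : ¬ (zpowers x ⊔ zpowers z).Normal

/-- A noncentral element of order `p` whose centraliser has rank at most two gives narrow data. -/
theorem narrowData_of_small (hR : IsPGroup p R) (hr : ¬ Cfsg.PRankLE p 2 R) (x : R) (hxp : x ^ p = 1)
    (hC : Cfsg.PRankLE p 2 (centralizer {x})) : Nonempty (NarrowData p R) := by
  classical
  have key : ∀ B : Subgroup R, B ≤ centralizer {x} → IsMulCommutative B → (∀ b ∈ B, b ^ p = 1) →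
      Nat.card B ≤ p ^ 2 := fun B hB hBc hBp => by
    haveI := hBc
    rw [← Lib.Coprime.card_subgroupOf hB]
    refine hC _ ⟨⟨fun a b => Subtype.ext (Subtype.ext ?_)⟩⟩ fun a ha => Subtype.ext ?_
    · exact setLike_mul_comm (mem_subgroupOf.mp a.2) (mem_subgroupOf.mp b.2)
    · rw [SubmonoidClass.coe_pow]; exact hBp _ (mem_subgroupOf.mp ha)
  obtain ⟨F, hFc, hFp, hF3⟩ : ∃ F : Subgroup R, IsMulCommutative F ∧ (∀ a ∈ F, a ^ p = 1) ∧
      p ^ 2 < Nat.card F := by
    simp only [Cfsg.PRankLE, not_forall, not_le] at hr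
    obtain ⟨F, h1, h2, h3⟩ := hr
    exact ⟨F, h1, h2, h3⟩
  haveI := hFc
  have hxnc : x ∉ center R := fun h =>
    absurd (key F (fun y _ => mem_centralizer_singleton_iff.mpr (mem_center_iff.mp h y)) hFc hFp) (not_le.mpr hF3)
  haveI : Nontrivial R := ⟨⟨x, 1, fun h => hxnc (h ▸ one_mem _)⟩⟩
  obtain ⟨z, -, hzc, hzo⟩ := Thompson.exists_central_order_p hR (N := (⊤ : Subgroup R)) top_ne_bot
  have hzp : z ^ p = 1 := by rw [← hzo, pow_orderOf_eq_one]
  have hz1 : z ≠ 1 := fun h => hp.out.ne_one (by rw [← hzo, h, orderOf_one])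
  have hxz : x ∉ zpowers z := fun h => hxnc (zpowers_le.mpr hzc h)
  set Ω := zpowers x ⊔ zpowers z with hΩ
  have hΩ2' : p ^ 2 ≤ Nat.card Ω := by
    have hlt : zpowers z < Ω :=
      lt_of_le_of_ne le_sup_right fun e => hxz (e ▸ mem_sup_left (mem_zpowers x))
    have h := Thompson.card_mul_p_le hR hlt
    rwa [Nat.card_zpowers, hzo, ← pow_two] at h
  -- any element of order `p` commuting with `x` lies in `Ω`
  have hsmall : ∀ y : R, y ^ p = 1 → y * x = x * y → y ∈ Ω := by
    intro y hy hc
    let B : Subgroup R := closure {x, z, y}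
    have hBc : IsMulCommutative B := by
      refine isMulCommutative_closure ?_
      have hxz' : x * z = z * x := mem_center_iff.mp hzc x
      have hyz : y * z = z * y := mem_center_iff.mp hzc y
      intro a ha b hb
      simp only [Set.mem_insert_iff, Set.mem_singleton_iff] at ha hb
      rcases ha with rfl | rfl | rfl <;> rcases hb with rfl | rfl | rfl <;>
        first | rfl | assumption | exact hc.symm | exact hxz'.symm | exact hyz.symm
    haveI := hBc
    have hBp : ∀ b ∈ B, b ^ p = 1 := by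
      intro b hb
      induction hb using closure_induction with
      | mem u hu =>
        simp only [Set.mem_insert_iff, Set.mem_singleton_iff] at hu
        rcases hu with rfl | rfl | rfl
        exacts [hxp, hzp, hy]
      | one => exact one_pow p
      | mul u v hu hv iu iv =>
        rw [(show Commute u v from setLike_mul_comm hu hv).mul_pow, iu, iv, one_mul]
      | inv u _ iu => rw [inv_pow, iu, inv_one]
    have hBC : B ≤ centralizer {x} := by
      rw [closure_le]
      rintro v (rfl | rfl | rfl)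
      exacts [mem_centralizer_singleton_iff.mpr rfl, mem_centralizer_singleton_iff.mpr (mem_center_iff.mp hzc x).symm,
        mem_centralizer_singleton_iff.mpr hc]
    have hΩB : Ω ≤ B := sup_le (zpowers_le.mpr (subset_closure (by simp))) (zpowers_le.mpr (subset_closure (by simp)))
    rw [eq_of_le_of_card_ge hΩB ((key B hBC hBc hBp).trans hΩ2')]
    exact subset_closure (by simp)
  refine ⟨⟨x, z, hxp, hzp, hz1, hzc, hxz, hsmall, ?_⟩⟩
  rw [← hΩ]
  intro hΩn
  have hxΩ : x ∈ Ω := mem_sup_left (mem_zpowers x)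
  have hzΩ : z ∈ Ω := mem_sup_right (mem_zpowers z)
  have hCx : ∀ y : R, y ^ p = 1 → y * x = x * y → y ∈ Ω := hsmall
  have hΩ2 : Nat.card Ω ≤ p ^ 2 := by
    haveI : (zpowers z).Normal := Thompson.normal_of_le_center (zpowers_le.mpr hzc)
    have h := Lib.Coprime.card_sup_mul_card_inf (zpowers z) (zpowers x)
    have h1 : Nat.card (zpowers x) ≤ p := by
      rw [Nat.card_zpowers]; exact Nat.le_of_dvd hp.out.pos (orderOf_dvd_of_pow_eq_one hxp)
    have h2 : Nat.card (zpowers z) ≤ p := by rw [Nat.card_zpowers, hzo]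
    calc _ ≤ _ := Nat.le_mul_of_pos_right _ Nat.card_pos
      _ = _ := h
      _ ≤ p ^ 2 := by rw [pow_two]; exact Nat.mul_le_mul h1 h2
  let V : Subgroup R := centralizer {x}
  have hval : ∀ g : R, ⁅g, x⁆ ∈ zpowers z := by
    intro g
    haveI : (zpowers z).Normal := Thompson.normal_of_le_center (zpowers_le.mpr hzc)
    let N : Subgroup (R ⧸ zpowers z) := Ω.map (QuotientGroup.mk' (zpowers z))
    have hNn : N.Normal := Subgroup.Normal.map hΩn _ (QuotientGroup.mk'_surjective _)
    by_cases hN : N = ⊥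
    · exact absurd ((QuotientGroup.eq_one_iff x).mp (mem_bot.mp (hN ▸ mem_map_of_mem _ hxΩ))) hxz
    obtain ⟨w, hwN, hwc, hwo⟩ := Thompson.exists_central_order_p (hR.to_quotient (zpowers z)) hN
    have hNcard : Nat.card N ≤ p := by
      have h1 := Lib.Coprime.card_map_mul_card_inf_ker (QuotientGroup.mk' (zpowers z)) Ω
      rw [QuotientGroup.ker_mk', inf_eq_right.mpr (zpowers_le.mpr hzΩ), Nat.card_zpowers, hzo] at h1
      exact Nat.le_of_mul_le_mul_right (by rw [h1, ← pow_two]; exact hΩ2) hp.out.pos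
    have hNeq : zpowers w = N := eq_of_le_of_card_ge (zpowers_le.mpr hwN) (by rw [Nat.card_zpowers, hwo]; exact hNcard)
    have hxc : (QuotientGroup.mk' (zpowers z)) x ∈ center (R ⧸ zpowers z) :=
      zpowers_le.mpr hwc (hNeq ▸ mem_map_of_mem _ hxΩ)
    rw [← QuotientGroup.eq_one_iff, ← QuotientGroup.mk'_apply, map_commutatorElement,
      commutatorElement_eq_one_iff_mul_comm]
    exact mem_center_iff.mp hxc _
  have hsame : ∀ a b : R, ⁅a, x⁆ = ⁅b, x⁆ → b⁻¹ * a ∈ V := by
    intro a b h
    have e : a * x * a⁻¹ = b * x * b⁻¹ := by simpa [commutatorElement_def] using h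
    refine mem_centralizer_singleton_iff.mpr ?_
    calc b⁻¹ * a * x = b⁻¹ * (a * x * a⁻¹) * a := by group
      _ = x * (b⁻¹ * a) := by rw [e]; group
  -- `F` meets `C(x)` in a subgroup of index at most `p`
  let g : F → zpowers z := fun y => ⟨⁅(y : R), x⁆, hval y⟩
  have hker : F ⊓ V ≤ Ω := fun y hy => hCx y (hFp y hy.1) (mem_centralizer_singleton_iff.mp hy.2)
  have hidx : Nat.card (F ⧸ (F ⊓ V).subgroupOf F) ≤ p := by
    rw [← hzo, ← Nat.card_zpowers]
    refine Nat.card_le_card_of_injective (fun q => g q.out) fun q r h => ?_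
    have h1 := hsame _ _ (congrArg Subtype.val h).symm
    rw [← q.out_eq, ← r.out_eq]
    exact QuotientGroup.eq.mpr (mem_subgroupOf.mpr (mem_inf.mpr ⟨mul_mem (inv_mem q.out.2) r.out.2, h1⟩))
  have hFV := ((F ⊓ V).subgroupOf F).card_mul_index
  rw [Lib.Coprime.card_subgroupOf inf_le_left, index_eq_card] at hFV
  have hlow : p ^ 2 ≤ Nat.card ↥(F ⊓ V) := by
    obtain ⟨k, hk⟩ := IsPGroup.iff_card.mp (hR.to_subgroup F)
    obtain ⟨j, hj⟩ := IsPGroup.iff_card.mp (hR.to_subgroup (F ⊓ V))
    rw [hj] at hFV ⊢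
    by_contra hlt
    have hj1 : j < 2 := (Nat.pow_lt_pow_iff_right hp.out.one_lt).mp (not_le.mp hlt)
    have : Nat.card F ≤ p ^ 2 := by
      rw [← hFV, pow_two]
      refine Nat.mul_le_mul ?_ hidx
      interval_cases j
      · rw [pow_zero]; exact hp.out.one_lt.le
      · simp
    omega
  have heq : F ⊓ V = Ω := eq_of_le_of_card_ge hker (hΩ2.trans hlow)
  have hxF : x ∈ F := (heq.ge hxΩ).1
  have hFV' : F ≤ V := fun y hy => mem_centralizer_singleton_iff.mpr (setLike_mul_comm hy hxF)
  rw [inf_eq_left.mpr hFV'] at heq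
  exact absurd (heq ▸ hΩ2) (not_le.mpr hF3)

theorem exists_narrowData (hR : IsPGroup p R) (hn : Cfsg.IsNarrow p R) (hr : ¬ Cfsg.PRankLE p 2 R) :
    Nonempty (NarrowData p R) := by
  classical
  obtain ⟨R₀, R₁, hR₀, hR₁, hinf, hcomm, hcen⟩ := hn.resolve_left hr
  haveI hc0 : IsCyclic R₀ := isCyclic_of_prime_card hR₀
  haveI := hR₁
  obtain ⟨⟨x, hx⟩, hgen⟩ := IsCyclic.exists_generator (α := R₀)
  have hxo : orderOf x = p := by
    rw [← hR₀, ← orderOf_eq_card_of_forall_mem_zpowers hgen, orderOf_mk]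
  have hx0 : zpowers x = R₀ :=
    eq_of_le_of_card_ge (zpowers_le.mpr hx) (by rw [Nat.card_zpowers, hxo, hR₀])
  set M := R₀ ⊔ R₁ with hM
  have hMc : ∀ a ∈ M, ∀ b ∈ M, a * b = b * a := by
    have h0 : ∀ a ∈ R₀, ∀ b ∈ R₀, a * b = b * a := fun a ha b hb =>
      congrArg Subtype.val ((IsCyclic.commGroup (α := R₀)).mul_comm ⟨a, ha⟩ ⟨b, hb⟩)
    have h1 : ∀ a ∈ R₁, ∀ b ∈ R₁, a * b = b * a := fun a ha b hb =>
      congrArg Subtype.val ((IsCyclic.commGroup (α := R₁)).mul_comm ⟨a, ha⟩ ⟨b, hb⟩)
    have hle : M ≤ centralizer (M : Set R) := by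
      rw [hM]
      refine sup_le ?_ ?_ <;> rw [le_centralizer_iff] <;> refine sup_le ?_ ?_ <;> intro a ha <;>
        refine mem_centralizer_iff.mpr fun b hb => ?_
      · exact h0 b hb a ha
      · exact hcomm b hb a ha
      · exact (hcomm a ha b hb).symm
      · exact h1 b hb a ha
    exact fun a ha b hb => mem_centralizer_iff.mp (hle hb) a ha
  have hCx : ∀ y : R, y * x = x * y → y ∈ M := by
    intro y hy
    rw [hcen, ← hx0]
    refine mem_centralizer_iff.mpr fun w hw => ?_
    obtain ⟨i, rfl⟩ := mem_zpowers_iff.mp hw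
    exact ((show Commute y x from hy).zpow_right i).symm.eq
  -- the elements of order `p` of `M`
  let Ω : Subgroup R :=
    { carrier := {y | y ∈ M ∧ y ^ p = 1}
      one_mem' := ⟨one_mem _, one_pow p⟩
      mul_mem' := fun {a b} ha hb => ⟨mul_mem ha.1 hb.1, by
        rw [(show Commute a b from hMc a ha.1 b hb.1).mul_pow, ha.2, hb.2, one_mul]⟩
      inv_mem' := fun {a} ha => ⟨inv_mem ha.1, by rw [inv_pow, ha.2, inv_one]⟩ }
  have hΩ2 : Nat.card Ω ≤ p ^ 2 := by
    haveI : Fintype R₁ := Fintype.ofFinite _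
    have hc : (Finset.univ.filter fun b : R₁ => b ^ p = 1).card ≤ p :=
      IsCyclic.card_pow_eq_one_le hp.out.pos
    let T := {b : R₁ // b ^ p = 1}
    have hT : Nat.card T ≤ p := by
      rw [Nat.card_eq_fintype_card, Fintype.card_subtype]; exact hc
    have hsplit : ∀ y : Ω, ∃ a : R₀, ∃ b : T, ((a : R) * ((b : R₁) : R)) = y := by
      rintro ⟨y, hyM, hyp⟩
      let P : Subgroup R :=
        { carrier := {y | ∃ a ∈ R₀, ∃ b ∈ R₁, a * b = y}
          one_mem' := ⟨1, one_mem _, 1, one_mem _, one_mul 1⟩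
          mul_mem' := by
            rintro _ _ ⟨a, ha, b, hb, rfl⟩ ⟨c, hc, d, hd, rfl⟩
            exact ⟨a * c, mul_mem ha hc, b * d, mul_mem hb hd,
              (show Commute c b from hcomm c hc b hb).mul_mul_mul_comm a d⟩
          inv_mem' := by
            rintro _ ⟨a, ha, b, hb, rfl⟩
            exact ⟨a⁻¹, inv_mem ha, b⁻¹, inv_mem hb, by
              rw [mul_inv_rev]; exact hcomm _ (inv_mem ha) _ (inv_mem hb)⟩ }
      have hMP : M ≤ P := sup_le (fun a ha => ⟨a, ha, 1, one_mem _, mul_one a⟩)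
        (fun b hb => ⟨1, one_mem _, b, hb, one_mul b⟩)
      have hmul : ∀ y ∈ M, ∃ a ∈ R₀, ∃ b ∈ R₁, a * b = y := fun y hy => hMP hy
      obtain ⟨a, ha, b, hb, rfl⟩ := hmul y hyM
      have hap : a ^ p = 1 := by
        have h := pow_card_eq_one' (x := (⟨a, ha⟩ : R₀))
        rw [hR₀] at h
        exact congrArg Subtype.val h
      rw [(show Commute a b from hcomm a ha b hb).mul_pow, hap, one_mul] at hyp
      exact ⟨⟨a, ha⟩, ⟨⟨b, hb⟩, Subtype.ext hyp⟩, rfl⟩
    choose fa fb hfab using hsplit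
    have hinj : Function.Injective fun y => (fa y, fb y) := fun y y' h => by
      simp only [Prod.mk.injEq] at h
      exact Subtype.ext (by rw [← hfab y, ← hfab y', h.1, h.2])
    calc Nat.card Ω ≤ Nat.card (R₀ × T) := Nat.card_le_card_of_injective _ hinj
      _ = p * Nat.card T := by rw [Nat.card_prod, hR₀]
      _ ≤ p ^ 2 := by rw [pow_two]; exact Nat.mul_le_mul_left p hT
  have hxΩ : x ∈ Ω := ⟨mem_sup_left hx, by rw [← hxo, pow_orderOf_eq_one]⟩
  refine narrowData_of_small hR hr x hxΩ.2 fun B hB hBp => ?_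
  rw [← card_map_of_injective (centralizer {x}).subtype_injective]
  refine (card_le_of_le (show B.map (centralizer {x}).subtype ≤ Ω from ?_)).trans hΩ2
  rintro _ ⟨b, hb, rfl⟩
  exact ⟨hCx _ (mem_centralizer_singleton_iff.mp b.2), by rw [← map_pow, hBp b hb, map_one]⟩

namespace NarrowData

variable (D : NarrowData p R)

theorem commute_z (g : R) : g * D.z = D.z * g := mem_center_iff.mp D.hzc g

theorem card_le_sq (hR : IsPGroup p R) : Nat.card ↥(zpowers D.x ⊔ zpowers D.z) ≤ p ^ 2 := by
  haveI : (zpowers D.z).Normal := Thompson.normal_of_le_center (zpowers_le.mpr D.hzc)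
  have h := Lib.Coprime.card_sup_mul_card_inf (zpowers D.z) (zpowers D.x)
  have h1 : Nat.card (zpowers D.x) ≤ p := by
    rw [Nat.card_zpowers]; exact Nat.le_of_dvd hp.out.pos (orderOf_dvd_of_pow_eq_one D.hxp)
  have h2 : Nat.card (zpowers D.z) ≤ p := by
    rw [Nat.card_zpowers]; exact Nat.le_of_dvd hp.out.pos (orderOf_dvd_of_pow_eq_one D.hzp)
  have h3 : 0 < Nat.card ↥(zpowers D.x ⊓ zpowers D.z) := Nat.card_pos
  calc _ ≤ _ := Nat.le_mul_of_pos_right _ h3
    _ = _ := h
    _ ≤ p ^ 2 := by rw [pow_two]; first | exact Nat.mul_le_mul h1 h2 | exact Nat.mul_le_mul h2 h1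

/-- Normal subgroups of exponent `p` contain `z`. -/
theorem z_mem (hR : IsPGroup p R) {N : Subgroup R} [N.Normal] (hN : N ≠ ⊥) : D.z ∈ N := by
  obtain ⟨w, hwN, hwc, hwo⟩ := Thompson.exists_central_order_p hR hN
  have hwp : w ^ p = 1 := by rw [← hwo, pow_orderOf_eq_one]
  have hw : w ∈ zpowers D.x ⊔ zpowers D.z := D.small w hwp (mem_center_iff.mp hwc D.x).symm
  have hwz : w ∈ zpowers D.z := by
    by_contra hne
    -- then `x` would be central
    have hlt : zpowers D.z < zpowers w ⊔ zpowers D.z :=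
      lt_of_le_of_ne le_sup_right fun e => hne (e ▸ mem_sup_left (mem_zpowers w))
    have h1 := Thompson.card_mul_p_le hR hlt
    have hzo : orderOf D.z = p := orderOf_eq_prime D.hzp D.hz1
    rw [Nat.card_zpowers, hzo, ← pow_two] at h1
    have heq : zpowers w ⊔ zpowers D.z = zpowers D.x ⊔ zpowers D.z :=
      eq_of_le_of_card_ge (sup_le (zpowers_le.mpr hw) le_sup_right) ((D.card_le_sq hR).trans h1)
    exact D.notNormal (Thompson.normal_of_le_center (heq ▸ sup_le (zpowers_le.mpr hwc) (zpowers_le.mpr D.hzc)))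
  have hgen : zpowers w = zpowers D.z := eq_of_le_of_card_ge (zpowers_le.mpr hwz)
    (by rw [Nat.card_zpowers, Nat.card_zpowers, hwo, orderOf_eq_prime D.hzp D.hz1])
  exact zpowers_le.mpr hwN (hgen ▸ mem_zpowers D.z)

include D in
/-- The map `n ↦ [n, x]` shows that the top factor of a normal exponent `p` subgroup is small. -/
theorem relIndex_le (hR : IsPGroup p R) {W : Subgroup R} [W.Normal] (hWp : ∀ w ∈ W, w ^ p = 1)
    (hW2 : ⁅⁅W, W⁆, W⁆ = ⊥) {N : Subgroup R} [N.Normal] (hNW : N ≤ W) :
    ⁅N, (⊤ : Subgroup R)⁆.relIndex N ≤ p := by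
  classical
  set U := zpowers D.x ⊔ zpowers D.z with hU
  set N' := ⁅N, (⊤ : Subgroup R)⁆ with hN'
  have hN'le : N' ≤ N := commutator_le_left N ⊤
  have hzo : orderOf D.z = p := orderOf_eq_prime D.hzp D.hz1
  by_cases hN : N = ⊥
  · rw [hN, relIndex_bot_right]; exact hp.out.one_lt.le
  have hzN : D.z ∈ N := D.z_mem hR hN
  have hcen : N ⊓ centralizer {D.x} ≤ U := fun y hy =>
    D.small y (hWp y (hNW hy.1)) (mem_centralizer_singleton_iff.mp hy.2)
  have hcommx : ∀ a b : R, ⁅a, D.x⁆ = ⁅b, D.x⁆ → b⁻¹ * a ∈ centralizer {D.x} := by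
    intro a b h
    have e : a * D.x * a⁻¹ = b * D.x * b⁻¹ := by simpa [commutatorElement_def] using h
    refine mem_centralizer_singleton_iff.mpr ?_
    calc b⁻¹ * a * D.x = b⁻¹ * (a * D.x * a⁻¹) * a := by group
      _ = D.x * (b⁻¹ * a) := by rw [e]; group
  -- a general bound
  have hbound : ∀ (M : Subgroup R) (T : Subgroup R), M ≤ N → (∀ n ∈ M, ⁅n, D.x⁆ ∈ T) →
      Nat.card M ≤ Nat.card T * Nat.card ↥(M ⊓ centralizer {D.x}) := by
    intro M T _ hT
    have hidx : Nat.card (M ⧸ (M ⊓ centralizer {D.x}).subgroupOf M) ≤ Nat.card T := by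
      refine Nat.card_le_card_of_injective (fun q => (⟨⁅(q.out : R), D.x⁆, hT _ q.out.2⟩ : T)) fun q r h => ?_
      have h1 := hcommx _ _ (congrArg Subtype.val h).symm
      rw [← q.out_eq, ← r.out_eq]
      exact QuotientGroup.eq.mpr (mem_subgroupOf.mpr (mem_inf.mpr ⟨mul_mem (inv_mem q.out.2) r.out.2, h1⟩))
    have h := ((M ⊓ centralizer {D.x}).subgroupOf M).card_mul_index
    rw [Lib.Coprime.card_subgroupOf inf_le_left, index_eq_card] at h
    rw [← h, mul_comm]
    exact Nat.mul_le_mul_right _ hidx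
  have hmul := card_mul_relIndex' (N' := N') (N := N) hN'le
  by_cases hxN : D.x ∈ N
  · -- `N` has order at most `p ^ 3`, its derived factor order at least `p ^ 2`
    have hsmall : ∀ M : Subgroup R, M.Normal → M ≤ W → D.x ∈ M →
        Nat.card M ≤ p ^ 3 ∧ p ^ 3 ≤ Nat.card M := by
      intro M hMn hMW hxM
      haveI := hMn
      have hUM : U ≤ M := sup_le (zpowers_le.mpr hxM)
        (zpowers_le.mpr (D.z_mem hR fun h => D.notNormal (by
          rw [h, mem_bot] at hxM
          exact absurd (hxM ▸ one_mem (zpowers D.z)) D.hxz)))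
      have hUlt : U < M := lt_of_le_of_ne hUM fun h => D.notNormal (by rw [← hU, h]; exact hMn)
      have hUc : p ^ 2 ≤ Nat.card U := by
        have hlt : zpowers D.z < U :=
          lt_of_le_of_ne le_sup_right fun e => D.hxz (e ▸ mem_sup_left (mem_zpowers _))
        have := Thompson.card_mul_p_le hR hlt
        rwa [Nat.card_zpowers, hzo, ← pow_two] at this
      refine ⟨?_, le_trans (by rw [pow_succ']; exact Nat.mul_le_mul_left p hUc) (Thompson.card_mul_p_le hR hUlt)⟩
      -- commutators of `M` with `x` lie in `⟨z⟩`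
      have hval : ∀ n ∈ M, ⁅n, D.x⁆ ∈ zpowers D.z := by
        intro n hn
        have hnW := hMW hn
        have hc : ∀ w ∈ W, Commute ⁅n, D.x⁆ w := fun w hw =>
          ((mem_centralizer_iff.mp (commutator_eq_bot_iff_le_centralizer.mp hW2
            (commutator_mem_commutator hnW (hMW hxM)))) w hw).symm
        have hcx : ⁅n, D.x⁆ * D.x = D.x * ⁅n, D.x⁆ := (hc D.x (hMW hxM)).eq
        have hnU : ⁅n, D.x⁆ ∈ U := D.small _ (hWp _ (by
          rw [commutatorElement_def]
          exact mul_mem (mul_mem (mul_mem hnW (hMW hxM)) (inv_mem hnW)) (inv_mem (hMW hxM)))) hcx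
        haveI : (zpowers D.z).Normal := Thompson.normal_of_le_center (zpowers_le.mpr D.hzc)
        obtain ⟨u, hu, v, hv, e⟩ := mem_sup_of_normal_right.mp hnU
        obtain ⟨i, rfl⟩ := mem_zpowers_iff.mp hu
        by_cases hxi : (D.x ^ i) = 1
        · rw [← e, hxi, one_mul]; exact hv
        exfalso
        -- then `x` would centralise `M`
        have hxi' : zpowers (D.x ^ i) = zpowers D.x :=
          eq_of_le_of_card_ge (zpowers_le.mpr (zpow_mem (mem_zpowers _) i)) (by
            rw [Nat.card_zpowers, Nat.card_zpowers,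
              orderOf_eq_prime (by rw [← zpow_natCast, ← _root_.zpow_mul, mul_comm, _root_.zpow_mul, zpow_natCast, D.hxp, one_zpow]) hxi,
              orderOf_eq_prime D.hxp fun h => D.hxz (h ▸ one_mem _)])
        have hMU : M ≤ U := fun m hm => by
          have h1 : Commute m (D.x ^ i) := by
            have h2 : Commute m ⁅n, D.x⁆ := (hc m (hMW hm)).symm
            have h3 : Commute m v⁻¹ := (show Commute m v from by
              obtain ⟨j, rfl⟩ := mem_zpowers_iff.mp hv
              exact (show Commute m D.z from D.commute_z m).zpow_right j).inv_right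
            rw [show D.x ^ i = ⁅n, D.x⁆ * v⁻¹ by rw [← e, mul_inv_cancel_right]]
            exact h2.mul_right h3
          refine D.small m (hWp m (hMW hm)) ?_
          have hle : zpowers D.x ≤ centralizer {m} :=
            hxi' ▸ zpowers_le.mpr (mem_centralizer_singleton_iff.mpr h1.symm.eq)
          exact (mem_centralizer_singleton_iff.mp (hle (mem_zpowers _))).symm
        exact D.notNormal (by rw [← hU, le_antisymm hUM hMU]; exact hMn)
      have hb : ∀ M', M' = M → Nat.card M ≤ Nat.card (zpowers D.z) * Nat.card ↥(M ⊓ centralizer {D.x}) := by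
        intro M' _
        have hidx : Nat.card (M ⧸ (M ⊓ centralizer {D.x}).subgroupOf M) ≤ Nat.card (zpowers D.z) := by
          refine Nat.card_le_card_of_injective (fun q => (⟨⁅(q.out : R), D.x⁆, hval _ q.out.2⟩ : zpowers D.z)) fun q r h => ?_
          have h1 := hcommx _ _ (congrArg Subtype.val h).symm
          rw [← q.out_eq, ← r.out_eq]
          exact QuotientGroup.eq.mpr (mem_subgroupOf.mpr (mem_inf.mpr ⟨mul_mem (inv_mem q.out.2) r.out.2, h1⟩))
        have h := ((M ⊓ centralizer {D.x}).subgroupOf M).card_mul_index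
        rw [Lib.Coprime.card_subgroupOf inf_le_left, index_eq_card] at h
        rw [← h, mul_comm]
        exact Nat.mul_le_mul_right _ hidx
      refine (hb M rfl).trans ?_
      rw [Nat.card_zpowers, hzo, pow_succ' p 2]
      exact Nat.mul_le_mul_left p ((card_le_of_le (show M ⊓ centralizer {D.x} ≤ U from fun y hy => D.small y (hWp y (hMW hy.1))
        (mem_centralizer_singleton_iff.mp hy.2))).trans (D.card_le_sq hR))
    obtain ⟨h3, h3'⟩ := hsmall N inferInstance hNW hxN
    haveI : N'.Normal := inferInstance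
    have hxN' : D.x ∉ N' := by
      intro hx'
      have h4 := (hsmall N' inferInstance (hN'le.trans hNW) hx').2
      have heq : N' = N := eq_of_le_of_card_ge hN'le (h3.trans h4)
      haveI : Group.IsNilpotent R := hR.isNilpotent
      exact hN (Transfer.eq_bot_of_le_commutator_top heq.ge)
    -- `N'` is not inside `⟨z⟩`
    have hN'z : ¬ N' ≤ zpowers D.z := by
      intro hle
      refine D.notNormal ⟨fun y hy g => ?_⟩
      have hyN : y ∈ N := sup_le (zpowers_le.mpr hxN) (zpowers_le.mpr hzN) hy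
      have h1 : ⁅y, g⁆ ∈ N' := commutator_mem_commutator hyN (mem_top g)
      rw [show g * y * g⁻¹ = (⁅y, g⁆)⁻¹ * y by rw [commutatorElement_def]; group]
      exact mul_mem (inv_mem (mem_sup_right (hle h1))) hy
    have hN'1 : N' ≠ ⊥ := fun h => hN'z (h ▸ bot_le)
    have hlt : zpowers D.z < N' := lt_of_le_of_ne (zpowers_le.mpr (D.z_mem hR hN'1)) fun e => hN'z e.ge
    have h5 := Thompson.card_mul_p_le hR hlt
    rw [Nat.card_zpowers, hzo, ← pow_two] at h5
    refine Nat.le_of_mul_le_mul_left ?_ (Nat.card_pos (α := N'))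
    rw [hmul]
    calc Nat.card N ≤ p ^ 2 * p := h3.trans (by rw [← pow_succ])
      _ ≤ _ := Nat.mul_le_mul_right p h5
  · refine Nat.le_of_mul_le_mul_left ?_ (Nat.card_pos (α := N'))
    rw [hmul]
    refine (hbound N N' le_rfl fun n hn => commutator_mem_commutator hn (mem_top _)).trans ?_
    refine Nat.mul_le_mul_left _ ?_
    by_contra hgt
    obtain ⟨j, hj⟩ := IsPGroup.iff_card.mp (hR.to_subgroup (N ⊓ centralizer {D.x}))
    have h2 : Nat.card U ≤ Nat.card ↥(N ⊓ centralizer {D.x}) := by
      refine (D.card_le_sq hR).trans ?_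
      rw [hj] at hgt ⊢
      refine Nat.pow_le_pow_right hp.out.pos ?_
      by_contra h; exact hgt (by
        have h1 : j ≤ 1 := by omega
        simpa using Nat.pow_le_pow_right hp.out.pos h1)
    have heq : N ⊓ centralizer {D.x} = U := eq_of_le_of_card_ge hcen h2
    exact hxN (heq.ge (mem_sup_left (mem_zpowers _))).1

end NarrowData

end Cfsg.Agent.Lib.Hall
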