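import Cfsg.Agent.Lib.Hall.Narrow

/-!
Automorphisms of narrow `p`-groups of rank at least three: derived subgroups and `(p-1)`-th powers act as
`p`-elements.
-/

set_option autoImplicit false

namespace Cfsg.Agent.Lib.Hall

open Subgroup Cfsg.Agent.Lib
open scoped commutatorElement Pointwise

universe u

/-- The group of automorphisms of a group of order at most a prime `p` is abelian of exponent dividing `p - 1`. -/
theorem mulAut_small {Q : Type*} [Group Q] [Finite Q] {p : ℕ} [hp : Fact p.Prime] (hQp : IsPGroup p Q)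
    (hQ : Nat.card Q ≤ p) : (∀ a b : MulAut Q, a * b = b * a) ∧ ∀ a : MulAut Q, a ^ (p - 1) = 1 := by
  obtain ⟨i, hi⟩ := IsPGroup.iff_card.mp hQp
  by_cases hi0 : i = 0
  · haveI : Subsingleton Q := (Nat.card_eq_one_iff_unique.mp (by rw [hi, hi0, pow_zero])).1
    exact ⟨fun a b => MulEquiv.ext fun x => Subsingleton.elim _ _,
      fun a => MulEquiv.ext fun x => Subsingleton.elim _ _⟩
  have hQc : Nat.card Q = p := le_antisymm hQ (hi ▸ Nat.le_self_pow hi0 p)
  haveI : IsCyclic Q := isCyclic_of_prime_card hQc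
  let e := IsCyclic.mulAutMulEquiv (G := Q)
  refine ⟨fun a b => e.injective (by rw [map_mul, map_mul, mul_comm]), fun a => e.injective ?_⟩
  rw [map_pow, map_one]
  obtain ⟨u, hu⟩ : ∃ u, e a = u := ⟨_, rfl⟩
  rw [hu]
  clear hu e
  revert u
  rw [hQc]
  exact fun u => ZMod.units_pow_card_sub_one_eq_one p u

variable {R : Type u} [Group R] [Finite R]

/-- The automorphisms induced on a characteristic section. -/
noncomputable def sectionHom (N M : Subgroup R) [hN : N.Characteristic] [hM : M.Characteristic] :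
    MulAut R →* MulAut (N ⧸ M.subgroupOf N) :=
  haveI : (M.subgroupOf N).Normal := inferInstance
  have h : ∀ σ : MulAut R, (M.subgroupOf N).map (charRestrict N σ).toMonoidHom = M.subgroupOf N := fun σ => by
    ext x
    constructor
    · rintro ⟨y, hy, rfl⟩
      exact (SetLike.ext_iff.mp (hM.fixed σ) (y : R)).mpr hy
    · intro hx
      refine ⟨(charRestrict N σ)⁻¹ x, ?_, MulAut.apply_inv_self _ _ _⟩
      exact (SetLike.ext_iff.mp (hM.fixed σ⁻¹) (x : R)).mpr hx
  { toFun := fun σ => QuotientGroup.congr _ _ (charRestrict N σ) (h σ)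
    map_one' := by
      apply MulEquiv.ext
      intro x
      induction x using QuotientGroup.induction_on
      rfl
    map_mul' := fun σ τ => by
      apply MulEquiv.ext
      intro x
      induction x using QuotientGroup.induction_on
      rfl }

/-- Derived elements and `(p-1)`-th powers act on a narrow `p`-group of rank at least three as `p`-elements. -/
theorem narrowData_act_pPow {p : ℕ} [hp : Fact p.Prime] (hp2 : p ≠ 2) (hR : IsPGroup p R)
    (D : NarrowData p R) {A : Type*} [Group A] (f : A →* MulAut R)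
    (d : A) (hd : d ∈ commutator A ∨ ∃ a, d = a ^ (p - 1)) : ∃ k : ℕ, f d ^ p ^ k = 1 := by
  classical
  obtain ⟨H, hH, hH1, hH2, hH3⟩ := Thompson.exists_critical hR
  haveI := hH
  have hHc : ∀ a ∈ H, ∀ b ∈ H, ∀ c ∈ H, Commute ⁅a, b⁆ c := fun a ha b hb c hc =>
    ((mem_centralizer_iff.mp (hH2 (commutator_mem_commutator ha (mem_top b))).2) c hc).symm
  have hcl : ⁅commutator H, (⊤ : Subgroup H)⁆ = ⊥ := by
    rw [commutator_eq_bot_iff_le_centralizer, coe_top, centralizer_univ, commutator_def, commutator_le]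
    exact fun x _ y _ => mem_center_iff.mpr fun z =>
      Subtype.ext (hHc _ x.2 _ y.2 _ z.2).symm.eq
  let W : Subgroup R :=
    { carrier := {x | x ∈ H ∧ x ^ p = 1}
      one_mem' := ⟨one_mem _, one_pow p⟩
      mul_mem' := fun {a b} ha hb => ⟨mul_mem ha.1 hb.1, by
        have := Thompson.pow_mul_eq_one_class_two hp2 hcl (x := (⟨a, ha.1⟩ : H)) (y := ⟨b, hb.1⟩)
          (Subtype.ext (by simpa using ha.2)) (Subtype.ext (by simpa using hb.2))
        simpa using congrArg Subtype.val this⟩
      inv_mem' := fun {a} ha => ⟨inv_mem ha.1, by rw [inv_pow, ha.2, inv_one]⟩ }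
  haveI hWc : W.Characteristic := characteristic_iff_le_comap.mpr fun φ x hx =>
    ⟨(SetLike.ext_iff.mp (hH.fixed φ) x).mpr hx.1, by
      show φ.toMonoidHom x ^ p = 1
      rw [← map_pow, hx.2, map_one]⟩
  have hW2 : ⁅⁅W, W⁆, W⁆ = ⊥ := by
    rw [commutator_eq_bot_iff_le_centralizer, commutator_le]
    exact fun a ha b hb => mem_centralizer_iff.mpr fun c hc => (hHc a ha.1 b hb.1 c hc.1).symm.eq
  let k := (orderOf (f d)).factorization p
  refine ⟨k, ?_⟩
  set σ := f d ^ p ^ k with hσ
  have hσo : (orderOf σ).Coprime p := by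
    rw [hσ, orderOf_pow_of_dvd (pow_ne_zero _ hp.out.ne_zero) (Nat.ordProj_dvd _ _)]
    exact (Nat.coprime_ordCompl hp.out (orderOf_pos (f d)).ne').symm
  have key : ∀ n : ℕ, ∀ N : Subgroup R, N.Characteristic → N ≤ W → Nat.card N = n →
      ∀ x ∈ N, σ x = x := by
    intro n
    induction n using Nat.strong_induction_on with
    | _ n ih =>
      intro N hN hNW hcard x hx
      haveI := hN
      by_cases hN1 : N = ⊥
      · rw [hN1, mem_bot] at hx; rw [hx, map_one]
      set M := ⁅N, (⊤ : Subgroup R)⁆ with hM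
      have hMN : M ≤ N := commutator_le_left N ⊤
      haveI : M.Characteristic := inferInstance
      have hlt : Nat.card M < n := by
        refine hcard ▸ lt_of_le_of_ne (card_le_of_le hMN) fun e => hN1 ?_
        haveI : Group.IsNilpotent R := hR.isNilpotent
        exact Transfer.eq_bot_of_le_commutator_top (eq_of_le_of_card_ge hMN e.ge).ge
      have hsmall : Nat.card (N ⧸ M.subgroupOf N) ≤ p := by
        rw [← index_eq_card]
        exact D.relIndex_le hR (W := W) (fun w hw => hw.2) hW2 hNW
      obtain ⟨hcomm, hexp⟩ := mulAut_small ((hR.to_subgroup N).to_quotient (M.subgroupOf N)) hsmall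
      let q : A →* MulAut (N ⧸ M.subgroupOf N) := (sectionHom N M).comp f
      have hqd : q d = 1 := by
        rcases hd with h | ⟨a, rfl⟩
        · have hle : commutator A ≤ q.ker := by
            rw [_root_.commutator_def, commutator_le]
            intro u _ v _
            rw [MonoidHom.mem_ker, map_commutatorElement, commutatorElement_eq_one_iff_mul_comm]
            exact hcomm _ _
          exact MonoidHom.mem_ker.mp (hle h)
        · rw [map_pow]; exact hexp _
      have hqσ : sectionHom N M σ = 1 := by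
        rw [hσ, map_pow]; show q d ^ p ^ k = 1; rw [hqd, one_pow]
      have hmod : x⁻¹ * σ x ∈ M := by
        have h := DFunLike.congr_fun hqσ (QuotientGroup.mk (⟨x, hx⟩ : N))
        exact mem_subgroupOf.mp (QuotientGroup.eq.mp h.symm)
      exact Thompson.eq_self_of_coprime hR hσo (ih _ hlt M inferInstance (hMN.trans hNW) rfl _ hmod)
  have hHσ : charRestrict H σ = 1 := by
    refine Cfsg.Agent.S0120.result hp2 (hR.to_subgroup H) _ (hσo.coprime_dvd_left (orderOf_map_dvd _ σ)) ?_
    intro x hxp
    exact Subtype.ext (key _ W hWc le_rfl rfl (x : R) ⟨x.2, by simpa using congrArg Subtype.val hxp⟩)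
  exact Cfsg.Agent.S0121.result hR H hH hH1 hH2 hH3 σ hσo fun x hx => by
    have h := DFunLike.congr_fun hHσ (⟨x, hx⟩ : H)
    exact congrArg Subtype.val h

/-- The same for narrow groups. -/
theorem narrow_act_pPow {p : ℕ} [hp : Fact p.Prime] (hp2 : p ≠ 2) (hR : IsPGroup p R)
    (hn : Cfsg.IsNarrow p R) (hr : ¬ Cfsg.PRankLE p 2 R) {A : Type*} [Group A] (f : A →* MulAut R)
    (d : A) (hd : d ∈ commutator A ∨ ∃ a, d = a ^ (p - 1)) : ∃ k : ℕ, f d ^ p ^ k = 1 :=
  (exists_narrowData hR hn hr).elim fun D => narrowData_act_pPow hp2 hR D f d hd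

end Cfsg.Agent.Lib.Hall
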