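import Cfsg.Agent.Lib.Hall.RankTwoNilpotent
import Cfsg.Agent.Lib.OddLocal.PLengthOne
import Cfsg.Agent.Lib.Transfer.Basic
import Cfsg.Prelude.Def_Local

/-!
The `p`-structure of solvable groups of odd order with small `p`-rank.
-/

set_option autoImplicit false

namespace Cfsg.Agent.Lib.Hall

open Subgroup Cfsg.Agent.Lib
open scoped commutatorElement Pointwise

universe u

variable {G : Type u} [Group G] [Finite G]

theorem fittingSubgroup_eq_pCore {H : Type u} [Group H] [Finite H] (p : ℕ) [hp : Fact p.Prime]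
    (h : Cfsg.pPrimeCore p H = ⊥) : Cfsg.fittingSubgroup H = Cfsg.pCore p H := by
  refine le_antisymm ?_ (pCore_le_fittingSubgroup p)
  refine (fittingSubgroup_eq_iSup_pCore (G := H)).le.trans (iSup_le fun r => ?_)
  by_cases hr : (r : ℕ) = p
  · rw [hr]
  · haveI := Fact.mk r.2
    obtain ⟨j, hj⟩ := IsPGroup.iff_card.mp (isPGroup_pCore (G := H) (r : ℕ))
    have hle : Cfsg.pCore (r : ℕ) H ≤ Cfsg.pPrimeCore p H :=
      le_pPrimeCore (by rw [hj]; exact ((Nat.coprime_primes r.2 hp.out).mpr hr).pow_left j)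
    rw [h] at hle
    exact hle.trans bot_le

theorem pPrimePCore_index (p : ℕ) :
    (Cfsg.pPrimePCore p G).index = (Cfsg.pCore p (G ⧸ Cfsg.pPrimeCore p G)).index :=
  index_comap_of_surjective _ (QuotientGroup.mk'_surjective _)

/-- Conclusions from: `G'` inside `O_{p',p}` and large primes act trivially on the `p`-core of `G/O_{p'}`. -/
theorem p_structure [Group.IsSolvable G] (hodd : Odd (Nat.card G)) (p : ℕ) [hp : Fact p.Prime]
    (hpG : p ∣ Nat.card G)
    (key : commutator (G ⧸ Cfsg.pPrimeCore p G) ≤ Cfsg.pCore p (G ⧸ Cfsg.pPrimeCore p G))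
    (hbig : ∀ q : ℕ, q.Prime → p < q → ∀ b : MulAut (Cfsg.pCore p (G ⧸ Cfsg.pPrimeCore p G)),
      b ^ q = 1 → b = 1) :
    (∀ q : ℕ, q.Prime → q ∣ (Cfsg.pPrimeCore p G).index → q ≤ p) ∧
      ((p = 3 ∨ ∀ q : ℕ, q.Prime → q ∣ Nat.card G → p ≤ q) → Cfsg.HasNormalPComplement p G) ∧
      Cfsg.HasNormalPComplement p ↥(commutator G) ∧
      (∀ L : Subgroup ↥(commutator G), (Nat.card L).Coprime p → L ≤ Cfsg.pPrimeCore p ↥(commutator G)) ∧
      commutator G ≤ Cfsg.pPrimePCore p G ∧ ((Cfsg.pPrimePCore p G).index).Coprime p := by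
  set K := Cfsg.pPrimeCore p G with hK
  set P := Cfsg.pCore p (G ⧸ K) with hP
  have hbot : Cfsg.pPrimeCore p (G ⧸ K) = ⊥ := OddLocal.pPrimeCore_quotient_eq_bot p
  haveI : Group.IsSolvable (G ⧸ K) := Group.isSolvable_of_surjective (QuotientGroup.mk'_surjective K)
  have hcen : centralizer (P : Set (G ⧸ K)) ≤ P := by
    rw [hP, ← fittingSubgroup_eq_pCore p hbot]
    exact centralizer_fittingSubgroup_le
  have hPp : IsPGroup p P := isPGroup_pCore p
  -- big primes do not divide the order of the quotient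
  have h1 : ∀ q : ℕ, q.Prime → q ∣ K.index → q ≤ p := by
    intro q hq hd
    by_contra hlt
    haveI := Fact.mk hq
    rw [index_eq_card] at hd
    obtain ⟨x, hx⟩ := exists_prime_orderOf_dvd_card' (G := G ⧸ K) q hd
    have hone : (MulAut.conjNormal x : MulAut P) = 1 :=
      hbig q hq (by omega) _ (by rw [← map_pow, ← hx, pow_orderOf_eq_one, map_one])
    have hxP : x ∈ P := hcen (mem_centralizer_iff.mpr fun y hy => by
      have h := congrArg Subtype.val (DFunLike.congr_fun hone (⟨y, hy⟩ : P))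
      rw [MulAut.conjNormal_apply] at h
      exact (mul_inv_eq_iff_eq_mul.mp h).symm)
    obtain ⟨j, hj⟩ := IsPGroup.iff_card.mp hPp
    have h2 : q ∣ p ^ j := hj ▸ hx ▸ P.orderOf_dvd_natCard hxP
    have := (Nat.prime_dvd_prime_iff_eq hq hp.out).mp (hq.dvd_of_dvd_pow h2)
    omega
  -- the quotient by `P` is a `p'`-group
  have h6 : (P.index).Coprime p := by
    rw [Nat.coprime_comm, hp.out.coprime_iff_not_dvd]
    intro hd
    rw [index_eq_card] at hd
    obtain ⟨z, hz⟩ := exists_prime_orderOf_dvd_card' (G := (G ⧸ K) ⧸ P) p hd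
    set M := (zpowers z).comap (QuotientGroup.mk' P)
    haveI : M.Normal := ⟨fun m hm g => by
      have hc : ⁅g, m⁆ ∈ P := key (commutator_mem_commutator (mem_top _) (mem_top _))
      have hle : P ≤ M := fun y hy => by
        show QuotientGroup.mk' P y ∈ zpowers z
        rw [QuotientGroup.mk'_apply, (QuotientGroup.eq_one_iff y).mpr hy]; exact one_mem _
      rw [show g * m * g⁻¹ = ⁅g, m⁆ * m by rw [commutatorElement_def]; group]
      exact mul_mem (hle hc) hm⟩
    have hM : IsPGroup p M := IsPGroup.comap_of_ker_isPGroup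
      (IsPGroup.of_card (n := 1) (by rw [Nat.card_zpowers, hz, pow_one])) _
      (by rw [QuotientGroup.ker_mk']; exact hPp)
    obtain ⟨w, hw⟩ := QuotientGroup.mk'_surjective P z
    have hwP : w ∈ P := le_pCore hM (by show QuotientGroup.mk' P w ∈ zpowers z; rw [hw]; exact mem_zpowers z)
    rw [← hw, QuotientGroup.mk'_apply, (QuotientGroup.eq_one_iff w).mpr hwP, orderOf_one] at hz
    exact hp.out.ne_one hz.symm
  have h5 : commutator G ≤ Cfsg.pPrimePCore p G := by
    intro g hg
    show QuotientGroup.mk' K g ∈ P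
    refine key ?_
    have h := mem_map_of_mem (QuotientGroup.mk' K) hg
    rw [commutator_def, map_commutator] at h
    exact commutator_mono le_top le_top h
  let D := commutator G
  let ND : Subgroup D := K.comap D.subtype
  haveI : ND.Normal := inferInstance
  have hND : (Nat.card ND).Coprime p :=
    (coprime_card_pPrimeCore p).coprime_dvd_left (by
      rw [← card_map_of_injective D.subtype_injective]
      exact card_dvd_of_le (map_comap_le _ _))
  have hQD : IsPGroup p (D ⧸ ND) := by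
    intro x
    induction x using QuotientGroup.induction_on with
    | H y =>
      obtain ⟨k, hk⟩ := hPp ⟨QuotientGroup.mk' K y, h5 y.2⟩
      refine ⟨k, ?_⟩
      rw [← QuotientGroup.mk_pow, QuotientGroup.eq_one_iff]
      show ((y ^ p ^ k : D) : G) ∈ K
      rw [← QuotientGroup.eq_one_iff, SubmonoidClass.coe_pow, QuotientGroup.mk_pow]
      exact congrArg Subtype.val hk
  refine ⟨h1, fun hsmall => ?_, ?_, fun L hL => ?_, h5, pPrimePCore_index (G := G) p ▸ h6⟩
  · rw [Transfer.hasNormalPComplement_iff]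
    have hpow : ∀ q : ℕ, q.Prime → q ∣ K.index → q = p := by
      intro q hq hd
      have hle := h1 q hq hd
      have hdG : q ∣ Nat.card G := hd.trans K.index_dvd_card
      rcases hsmall with h3 | hmin
      · have hq2 : q ≠ 2 := fun h => hodd.not_two_dvd_nat (h ▸ hdG)
        have := hq.two_le
        omega
      · exact le_antisymm hle (hmin q hq hdG)
    have hQ : IsPGroup p (G ⧸ K) := IsPGroup.of_card (n := K.index.primeFactorsList.length) (by
      rw [← index_eq_card]
      exact Nat.eq_prime_pow_of_unique_prime_dvd index_ne_zero_of_finite fun {q} hq hd => hpow q hq hd)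
    intro hd
    exact (hp.out.coprime_iff_not_dvd.mp (coprime_card_pPrimeCore p).symm)
      (hd.trans (card_dvd_of_le (Transfer.pResidual_le hQ)))
  · rw [Transfer.hasNormalPComplement_iff]
    intro hd
    exact (hp.out.coprime_iff_not_dvd.mp hND.symm) (hd.trans (card_dvd_of_le (Transfer.pResidual_le hQD)))
  · intro x hx
    refine le_pPrimeCore hND ?_
    rw [← QuotientGroup.eq_one_iff, ← orderOf_eq_one_iff]
    obtain ⟨k, hk⟩ := IsPGroup.iff_orderOf.mp hQD (QuotientGroup.mk x)
    refine Nat.eq_one_of_dvd_coprimes (hL.pow_right k) ?_ hk.dvd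
    exact (orderOf_map_dvd (QuotientGroup.mk' ND) x).trans (L.orderOf_dvd_natCard hx)

end Cfsg.Agent.Lib.Hall

namespace Cfsg.Agent.Lib.Hall

open Subgroup Cfsg.Agent.Lib

universe v

variable {G : Type v} [Group G] [Finite G]

/-- The `p`-core of `G/O_{p'}(G)` embeds in a Sylow `p`-subgroup. -/
theorem exists_pCore_embedding (p : ℕ) [hp : Fact p.Prime] (S : Sylow p G) :
    ∃ ι : Cfsg.pCore p (G ⧸ Cfsg.pPrimeCore p G) →* (S : Subgroup G), Function.Injective ι := by
  set K := Cfsg.pPrimeCore p G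
  let φ : (S : Subgroup G) →* G ⧸ K := (QuotientGroup.mk' K).comp (S : Subgroup G).subtype
  have hφ : Function.Injective φ := by
    rw [← MonoidHom.ker_eq_bot_iff, eq_bot_iff]
    intro x hx
    have hxK : (x : G) ∈ K := (QuotientGroup.eq_one_iff _).mp hx
    obtain ⟨j, hj⟩ := IsPGroup.iff_orderOf.mp S.isPGroup' x
    have hd : orderOf x ∣ Nat.card K := by rw [← orderOf_coe]; exact K.orderOf_dvd_natCard hxK
    exact mem_bot.mpr (orderOf_eq_one_iff.mp
      (Nat.eq_one_of_dvd_coprimes ((coprime_card_pPrimeCore p).pow_right j) hd hj.dvd))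
  let S' : Sylow p (G ⧸ K) := S.mapSurjective (QuotientGroup.mk'_surjective K)
  have hle : Cfsg.pCore p (G ⧸ K) ≤ φ.range := by
    refine (pCore_le_sylow S').trans (le_of_eq ?_)
    rw [MonoidHom.range_comp, range_subtype]
    rfl
  exact ⟨(MonoidHom.ofInjective hφ).symm.toMonoidHom.comp (inclusion hle),
    (MonoidHom.ofInjective hφ).symm.injective.comp (inclusion_injective hle)⟩

/-- The `p`-structure when the `p`-rank is at most two. -/
theorem p_structure_rank_two [Group.IsSolvable G] (hodd : Odd (Nat.card G)) (p : ℕ) [hp : Fact p.Prime]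
    (hpG : p ∣ Nat.card G) (S : Sylow p G) (hr : Cfsg.PRankLE p 2 (S : Subgroup G)) :
    (∀ q : ℕ, q.Prime → q ∣ (Cfsg.pPrimeCore p G).index → q ≤ p) ∧
      ((p = 3 ∨ ∀ q : ℕ, q.Prime → q ∣ Nat.card G → p ≤ q) → Cfsg.HasNormalPComplement p G) ∧
      Cfsg.HasNormalPComplement p ↥(commutator G) ∧
      (∀ L : Subgroup ↥(commutator G), (Nat.card L).Coprime p → L ≤ Cfsg.pPrimeCore p ↥(commutator G)) ∧
      commutator G ≤ Cfsg.pPrimePCore p G ∧ ((Cfsg.pPrimePCore p G).index).Coprime p := by
  set K := Cfsg.pPrimeCore p G with hK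
  have hp2 : p ≠ 2 := fun h => hodd.not_two_dvd_nat (h ▸ hpG)
  haveI : Group.IsSolvable (G ⧸ K) := Group.isSolvable_of_surjective (QuotientGroup.mk'_surjective K)
  have hodd' : Odd (Nat.card (G ⧸ K)) := hodd.of_dvd_nat (card_quotient_dvd_card _)
  have hbot : Cfsg.pPrimeCore p (G ⧸ K) = ⊥ := OddLocal.pPrimeCore_quotient_eq_bot p
  obtain ⟨ι, hι⟩ := exists_pCore_embedding p S
  have hPr : Cfsg.PRankLE p 2 (Cfsg.pCore p (G ⧸ K)) := prankLE_of_injective ι hι hr
  have hF := fittingSubgroup_eq_pCore p hbot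
  have hFr : Cfsg.RankLE 2 (Cfsg.fittingSubgroup (G ⧸ K)) := by
    intro r hr'
    rw [hF]
    rcases eq_or_ne r p with rfl | hne
    · exact hPr
    intro B hB hBr
    refine le_trans (le_of_eq (card_eq_one.mpr (eq_bot_iff.mpr fun b hb => mem_bot.mpr ?_))) (Nat.one_le_pow _ _ hr'.pos)
    rw [← orderOf_eq_one_iff]
    obtain ⟨j, hj⟩ := IsPGroup.iff_orderOf.mp (isPGroup_pCore (G := G ⧸ K) p) b
    exact Nat.eq_one_of_dvd_coprimes (((Nat.coprime_primes hr' hp.out).mpr hne).pow_right j)
      (orderOf_dvd_of_pow_eq_one (hBr b hb)) hj.dvd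
  exact p_structure hodd p hpG ((commutator_le_fitting hodd' hFr).trans hF.le)
    fun q hq hlt b hb => eq_one_of_prime_gt hp2 (isPGroup_pCore p) hPr hq hlt b hb

end Cfsg.Agent.Lib.Hall
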