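import Cfsg.Agent.Lib.Hall.PStructure
import Cfsg.Agent.Lib.Hall.NarrowAction
import Cfsg.Agent.Lib.PLength.Basic

/-!
The `p`-structure of solvable odd groups of `p`-length one with a narrow Sylow `p`-subgroup.
-/

set_option autoImplicit false

namespace Cfsg.Agent.Lib.Hall

open Subgroup Cfsg.Agent.Lib
open scoped commutatorElement Pointwise

universe u

variable {G : Type u} [Group G] [Finite G]

/-- In `p`-length one, `O_p(G/O_{p'}(G))` has index prime to `p`. -/
theorem not_dvd_index_of_pLength_one (p : ℕ) [hp : Fact p.Prime] (hpl : Cfsg.PLengthLE p 1 G) :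
    ¬ p ∣ (Cfsg.pCore p (G ⧸ Cfsg.pPrimeCore p G)).index := by
  haveI : ((Cfsg.upperPSeries p G 1).1).Normal := (Cfsg.upperPSeries p G 1).2
  have h3 : (Cfsg.upperPSeries p G 3).1 = ⊤ := hpl
  set U2 := (Cfsg.upperPSeries p G 2).1
  have hidx : ¬ p ∣ U2.index := by
    haveI : U2.Normal := (Cfsg.upperPSeries p G 2).2
    have hstep : (Cfsg.upperPSeries p G 3).1 =
        (Cfsg.pPrimeCore p (G ⧸ U2)).comap (QuotientGroup.mk' U2) := rfl
    have htop : Cfsg.pPrimeCore p (G ⧸ U2) = ⊤ := by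
      rw [eq_top_iff]
      intro x _
      obtain ⟨g, rfl⟩ := QuotientGroup.mk'_surjective U2 x
      have : g ∈ (Cfsg.upperPSeries p G 3).1 := by rw [h3]; exact mem_top g
      rw [hstep] at this
      exact this
    have := not_dvd_card_pPrimeCore (G := G ⧸ U2) hp.out
    rwa [htop, card_top, ← index_eq_card] at this
  have key : ∀ (U : Subgroup G) [U.Normal], U = Cfsg.pPrimeCore p G →
      (Cfsg.pCore p (G ⧸ U)).index = (Cfsg.pCore p (G ⧸ Cfsg.pPrimeCore p G)).index := by
    rintro U _ rfl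
    rfl
  rw [← key _ (PLength.upperPSeries_one (G := G) (p := p)),
    ← index_comap_of_surjective _ (QuotientGroup.mk'_surjective (Cfsg.upperPSeries p G 1).1)]
  exact hidx

theorem isNarrow_of_mulEquiv {R R' : Type u} [Group R] [Group R'] {p : ℕ} (e : R ≃* R')
    (h : Cfsg.IsNarrow p R) : Cfsg.IsNarrow p R' := by
  rcases h with h | ⟨R₀, R₁, h0, h1, h2, h3, h4⟩
  · exact Or.inl (prankLE_of_injective e.symm.toMonoidHom e.symm.injective h)
  haveI := h1
  refine Or.inr ⟨R₀.map e.toMonoidHom, R₁.map e.toMonoidHom, ?_, ?_, ?_, ?_, ?_⟩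
  · rw [card_map_of_injective e.injective, h0]
  · exact isCyclic_of_surjective _ (e.subgroupMap R₁).surjective
  · rw [← map_inf _ _ _ e.injective, h2, Subgroup.map_bot]
  · rintro _ ⟨a, ha, rfl⟩ _ ⟨b, hb, rfl⟩
    rw [← map_mul, h3 a ha b hb, map_mul]
  · rw [← Subgroup.map_sup, h4]
    ext y
    constructor
    · rintro ⟨x, hx, rfl⟩
      refine mem_centralizer_iff.mpr ?_
      rintro _ ⟨a, ha, rfl⟩
      rw [← map_mul, mem_centralizer_iff.mp hx a ha, map_mul]
    · intro hy
      refine ⟨e.symm y, mem_centralizer_iff.mpr fun a ha => e.injective ?_, e.apply_symm_apply y⟩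
      rw [map_mul, map_mul, e.apply_symm_apply]
      exact mem_centralizer_iff.mp hy _ ⟨a, ha, rfl⟩

/-- The `p`-structure for a narrow Sylow subgroup. -/
theorem p_structure_narrow [Group.IsSolvable G] (hodd : Odd (Nat.card G)) (p : ℕ) [hp : Fact p.Prime]
    (hpG : p ∣ Nat.card G) (S : Sylow p G) (hS : Cfsg.IsNarrow p (S : Subgroup G))
    (hpl : ¬ Cfsg.PRankLE p 2 (S : Subgroup G) → Cfsg.PLengthLE p 1 G) :
    (∀ q : ℕ, q.Prime → q ∣ (Cfsg.pPrimeCore p G).index → q ≤ p) ∧
      ((p = 3 ∨ ∀ q : ℕ, q.Prime → q ∣ Nat.card G → p ≤ q) → Cfsg.HasNormalPComplement p G) ∧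
      Cfsg.HasNormalPComplement p ↥(commutator G) ∧
      (∀ L : Subgroup ↥(commutator G), (Nat.card L).Coprime p → L ≤ Cfsg.pPrimeCore p ↥(commutator G)) ∧
      commutator G ≤ Cfsg.pPrimePCore p G ∧ ((Cfsg.pPrimePCore p G).index).Coprime p := by
  classical
  by_cases hr : Cfsg.PRankLE p 2 (S : Subgroup G)
  · exact p_structure_rank_two hodd p hpG S hr
  have hp2 : p ≠ 2 := fun h => hodd.not_two_dvd_nat (h ▸ hpG)
  set K := Cfsg.pPrimeCore p G with hK
  set P := Cfsg.pCore p (G ⧸ K) with hP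
  have hidx : ¬ p ∣ P.index := not_dvd_index_of_pLength_one p (hpl hr)
  obtain ⟨ι, hι⟩ := exists_pCore_embedding p S
  have hιs : Function.Surjective ι := by
    rw [← MonoidHom.range_eq_top]
    refine eq_top_of_card_eq _ (le_antisymm (card_le_card_group _) ?_)
    rw [← Nat.card_congr (MonoidHom.ofInjective hι).toEquiv]
    obtain ⟨i, hi⟩ := IsPGroup.iff_card.mp (isPGroup_pCore (G := G ⧸ K) p)
    have h1 : Nat.card (S : Subgroup G) ∣ Nat.card P * (P.index * Nat.card K) := by
      rw [← mul_assoc, card_mul_index, ← index_eq_card, index_mul_card]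
      exact card_subgroup_dvd_card _
    obtain ⟨j, hj⟩ := IsPGroup.iff_card.mp S.isPGroup'
    have hcop : (p ^ j).Coprime (P.index * Nat.card K) :=
      Nat.Coprime.pow_left j (Nat.Coprime.mul_right (hp.out.coprime_iff_not_dvd.mpr hidx)
        (coprime_card_pPrimeCore p).symm)
    rw [hj] at h1
    exact Nat.le_of_dvd Nat.card_pos (hj ▸ hcop.dvd_of_dvd_mul_right h1)
  let e : P ≃* (S : Subgroup G) := MulEquiv.ofBijective ι ⟨hι, hιs⟩
  have hPn : Cfsg.IsNarrow p P := isNarrow_of_mulEquiv e.symm hS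
  have hPr : ¬ Cfsg.PRankLE p 2 P := fun h => hr (prankLE_of_injective e.symm.toMonoidHom e.symm.injective h)
  have hPp : IsPGroup p P := isPGroup_pCore p
  have hodd' : Odd (Nat.card (G ⧸ K)) := hodd.of_dvd_nat (card_quotient_dvd_card _)
  refine p_structure hodd p hpG ?_ fun q hq hlt b hb => ?_
  · intro d hd
    obtain ⟨k, hk⟩ := narrow_act_pPow hp2 hPp hPn hPr (MulAut.conjNormal (H := P)) d (Or.inl hd)
    haveI : Group.IsSolvable (G ⧸ K) := Group.isSolvable_of_surjective (QuotientGroup.mk'_surjective K)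
    have hcen : centralizer (P : Set (G ⧸ K)) ≤ P := by
      rw [hP, ← fittingSubgroup_eq_pCore p (OddLocal.pPrimeCore_quotient_eq_bot p)]
      exact centralizer_fittingSubgroup_le
    have hin : d ^ p ^ k ∈ P := hcen (mem_centralizer_iff.mpr fun y hy => by
      have h := congrArg Subtype.val (DFunLike.congr_fun ((map_pow _ _ _).trans hk : (MulAut.conjNormal (d ^ p ^ k) : MulAut P) = 1) (⟨y, hy⟩ : P))
      rw [MulAut.conjNormal_apply] at h
      exact (mul_inv_eq_iff_eq_mul.mp h).symm)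
    rw [← QuotientGroup.eq_one_iff, ← orderOf_eq_one_iff]
    refine Nat.eq_one_of_dvd_coprimes ((hp.out.coprime_iff_not_dvd.mpr hidx).pow_left k) ?_ ?_
    · refine orderOf_dvd_of_pow_eq_one ?_
      rw [← QuotientGroup.mk_pow, QuotientGroup.eq_one_iff]
      exact hin
    · rw [index_eq_card]; exact _root_.orderOf_dvd_natCard _
  · obtain ⟨k, hk⟩ := narrow_act_pPow hp2 hPp hPn hPr (MonoidHom.id (MulAut P)) (b ^ (p - 1)) (Or.inr ⟨b, rfl⟩)
    rw [MonoidHom.id_apply, ← pow_mul] at hk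
    rw [← orderOf_eq_one_iff]
    refine Nat.eq_one_of_dvd_coprimes ?_ (orderOf_dvd_of_pow_eq_one hb) (orderOf_dvd_of_pow_eq_one hk)
    have h3 := hp.out.two_le
    refine Nat.Coprime.mul_right ?_ (((Nat.coprime_primes hq hp.out).mpr hlt.ne').pow_right k)
    exact hq.coprime_iff_not_dvd.mpr fun h => absurd (Nat.le_of_dvd (by omega) h) (by omega)

end Cfsg.Agent.Lib.Hall
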