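import Cfsg.Agent.Lib.Hall.OddRankTwo
import Cfsg.Agent.Lib.Hall.Solvable
import Cfsg.Agent.Lib.OddLocal.PiCore
import Cfsg.Prelude.Def_OddOrderLocal

/-!
Solvable groups of odd order whose Fitting subgroup has rank at most two.
-/

set_option autoImplicit false

namespace Cfsg.Agent.Lib.Hall

open Subgroup Cfsg.Agent.Lib
open scoped commutatorElement Pointwise

universe u

variable {G : Type u} [Group G]

theorem prankLE_of_injective {H : Type*} [Group H] {p k : ℕ} (f : H →* G) (hf : Function.Injective f)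
    (h : Cfsg.PRankLE p k G) : Cfsg.PRankLE p k H := by
  intro B hB hBp
  rw [← card_map_of_injective hf]
  haveI := hB
  refine h (B.map f) inferInstance ?_
  rintro _ ⟨b, hb, rfl⟩
  rw [← map_pow, hBp b hb, map_one]

variable [Finite G]

theorem prankLE_pCore {p : ℕ} [Fact p.Prime] (hr : Cfsg.RankLE 2 (Cfsg.fittingSubgroup G)) :
    Cfsg.PRankLE p 2 (Cfsg.pCore p G) :=
  prankLE_of_injective (inclusion (pCore_le_fittingSubgroup p)) (inclusion_injective _) (hr p Fact.out)

/-- `G'` induces a `p`-group on `O_p(G)`. -/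
theorem commutator_conj_pPow [Group.IsSolvable G] (hodd : Odd (Nat.card G))
    (hr : Cfsg.RankLE 2 (Cfsg.fittingSubgroup G)) (p : ℕ) [hp : Fact p.Prime] {g : G}
    (hg : g ∈ commutator G) : ∃ k : ℕ, (MulAut.conjNormal g : MulAut (Cfsg.pCore p G)) ^ p ^ k = 1 := by
  rcases eq_or_ne p 2 with rfl | hp2
  · refine ⟨0, ?_⟩
    have hb : Cfsg.pCore 2 G = ⊥ := pCore_eq_bot_of_not_dvd hodd.not_two_dvd_nat
    apply MulEquiv.ext
    intro x
    exact Subtype.ext ((mem_bot.mp (hb ▸ SetLike.coe_mem _)).trans (mem_bot.mp (hb ▸ x.2)).symm)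
  · exact commutator_act_pPow hp2 (isPGroup_pCore p) (prankLE_pCore hr) hodd MulAut.conjNormal g hg

theorem commute_pCore_of_act
    (hact : ∀ r : ℕ, r.Prime → ∀ g ∈ commutator G, ∃ k : ℕ, (MulAut.conjNormal g : MulAut (Cfsg.pCore r G)) ^ r ^ k = 1)
    (p : ℕ) [hp : Fact p.Prime] {g : G}
    (hg : g ∈ commutator G) (hco : (orderOf g).Coprime p) {x : G} (hx : x ∈ Cfsg.pCore p G) :
    g * x = x * g := by
  obtain ⟨k, hk⟩ := hact p hp.out g hg
  have h1 : (MulAut.conjNormal g : MulAut (Cfsg.pCore p G)) = 1 := by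
    rw [← orderOf_eq_one_iff]
    exact Nat.eq_one_of_dvd_coprimes (hco.pow_right k) (orderOf_map_dvd _ g) (orderOf_dvd_of_pow_eq_one hk)
  have h2 := congrArg Subtype.val (DFunLike.congr_fun h1 (⟨x, hx⟩ : Cfsg.pCore p G))
  rw [MulAut.conjNormal_apply] at h2
  exact mul_inv_eq_iff_eq_mul.mp h2

theorem centralizer_of_pCore {g : G} (h : ∀ p : ℕ, p.Prime → ∀ x ∈ Cfsg.pCore p G, g * x = x * g) :
    g ∈ centralizer (Cfsg.fittingSubgroup G : Set G) := by
  have hle : Cfsg.fittingSubgroup G ≤ centralizer {g} := by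
    rw [fittingSubgroup_eq_iSup_pCore]
    exact iSup_le fun p x hx => mem_centralizer_singleton_iff.mpr (h p p.2 x hx).symm
  exact mem_centralizer_iff.mpr fun x hx => mem_centralizer_singleton_iff.mp (hle hx)

theorem mem_pCore_of_mem_fitting {p : ℕ} [hp : Fact p.Prime] {g : G} (hg : g ∈ Cfsg.fittingSubgroup G)
    (hord : ∃ k, orderOf g = p ^ k) : g ∈ Cfsg.pCore p G := by
  haveI := fittingSubgroup_isNilpotent (G := G)
  set F := Cfsg.fittingSubgroup G
  obtain ⟨k, hk⟩ := hord
  have hz : IsPGroup p (zpowers (⟨g, hg⟩ : F)) :=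
    IsPGroup.of_card (n := k) (by rw [Nat.card_zpowers, orderOf_mk, hk])
  obtain ⟨S, hS⟩ := hz.exists_le_sylow
  haveI hSn : (S : Subgroup F).Normal :=
    (Group.isNilpotent_of_finite_tfae (G := F)).out 0 3 rfl rfl |>.mp inferInstance p hp S
  haveI : (S : Subgroup F).Characteristic := Sylow.characteristic_of_normal S hSn
  exact le_pCore (N := (S : Subgroup F).map F.subtype) (S.isPGroup'.map _)
    ⟨⟨g, hg⟩, hS (mem_zpowers _), rfl⟩

/-- A subgroup containing, for every prime, a Sylow subgroup is everything. -/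
theorem eq_top_of_sylows {H : Type*} [Group H] [Finite H] {M : Subgroup H}
    (h : ∀ r : ℕ, r.Prime → ∃ R : Sylow r H, (R : Subgroup H) ≤ M) : M = ⊤ := by
  rw [← index_eq_one, Nat.eq_one_iff_not_exists_prime_dvd]
  intro r hr hd
  haveI := Fact.mk hr
  obtain ⟨R, hR⟩ := h r hr
  exact R.not_dvd_index (hd.trans (index_dvd_of_le hR))

/-- A derived group inducing an `r`-group on every `O_r(G)` is nilpotent. -/
theorem commutator_isNilpotent_of_act [Group.IsSolvable G]
    (hact : ∀ r : ℕ, r.Prime → ∀ g ∈ commutator G, ∃ k : ℕ, (MulAut.conjNormal g : MulAut (Cfsg.pCore r G)) ^ r ^ k = 1) :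
    Group.IsNilpotent (commutator G) := by
  set D := commutator G with hD
  refine ((Group.isNilpotent_of_finite_tfae (G := D)).out 0 3 rfl rfl).mpr ?_
  intro q hq S
  haveI := hq
  set F := Cfsg.fittingSubgroup G
  let Z : Subgroup D := (centralizer (F : Set G)).comap D.subtype
  haveI : Z.Normal := inferInstance
  have hZF : ∀ z ∈ Z, (z : G) ∈ F := fun z hz => centralizer_fittingSubgroup_le hz
  -- elements of `Z` normalise `S`
  have hprim : ∀ z ∈ Z, ∀ r k : ℕ, r.Prime → orderOf z = r ^ k → z ∈ normalizer ((S : Subgroup D) : Set D) := by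
    intro z hz r k hr' hk
    haveI := Fact.mk hr'
    have hzr : (z : G) ∈ Cfsg.pCore r G := mem_pCore_of_mem_fitting (hZF z hz) ⟨k, by rw [orderOf_coe, hk]⟩
    by_cases hrq : r = q
    · subst hrq
      have hN : (Cfsg.pCore r G).subgroupOf D ≤ (S : Subgroup D) := by
        refine (le_pCore (p := r) ?_).trans (pCore_le_sylow S)
        exact ((isPGroup_pCore (G := G) r).comap_subtype)
      exact le_normalizer (hN hzr)
    · refine centralizer_le_normalizer _ (mem_centralizer_iff.mpr fun s hs => Subtype.ext ?_)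
      obtain ⟨j, hj⟩ := IsPGroup.iff_orderOf.mp S.isPGroup' ⟨s, hs⟩
      rw [orderOf_mk] at hj
      refine commute_pCore_of_act hact r s.2 ?_ hzr
      rw [orderOf_coe, hj]
      exact ((Nat.coprime_primes hq.out hr').mpr (Ne.symm hrq)).pow_left j
  have hZN : Z ≤ normalizer ((S : Subgroup D) : Set D) := by
    suffices h : (normalizer ((S : Subgroup D) : Set D)).subgroupOf Z = ⊤ from subgroupOf_eq_top.mp h
    refine eq_top_of_sylows fun r hr' => ?_
    haveI := Fact.mk hr'
    obtain ⟨R⟩ := (inferInstance : Nonempty (Sylow r Z))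
    refine ⟨R, fun z hz => ?_⟩
    obtain ⟨k, hk⟩ := IsPGroup.iff_orderOf.mp R.isPGroup' ⟨z, hz⟩
    exact hprim z z.2 r k hr' (by rw [← hk]; exact (orderOf_coe z).trans (orderOf_mk z hz).symm)
  let SZ : Subgroup D := (S : Subgroup D) ⊔ Z
  have hSZS : SZ ≤ normalizer ((S : Subgroup D) : Set D) := sup_le le_normalizer hZN
  -- a conjugate of `S` inside `SZ` is `S`
  have huniq : ∀ g : D, (∀ s ∈ (S : Subgroup D), g * s * g⁻¹ ∈ SZ) → g ∈ normalizer ((S : Subgroup D) : Set D) := by
    intro g hg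
    refine Sylow.smul_eq_iff_mem_normalizer.mp (Sylow.ext (eq_of_le_of_card_ge ?_ ?_))
    · have h1 : ((g • S : Sylow q D) : Subgroup D) ≤ normalizer ((S : Subgroup D) : Set D) := by
        rintro x ⟨s, hs, rfl⟩
        exact hSZS (hg s hs)
      calc ((g • S : Sylow q D) : Subgroup D)
          = ((g • S : Sylow q D) : Subgroup D) ⊓ normalizer ((S : Subgroup D) : Set D) := (inf_eq_left.mpr h1).symm
        _ = ((g • S : Sylow q D) : Subgroup D) ⊓ (S : Subgroup D) := IsPGroup.inf_normalizer_sylow (g • S).isPGroup' S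
        _ ≤ _ := inf_le_right
    · rw [Sylow.coe_subgroup_smul]; exact (Lib.Coprime.card_conj_smul g _).ge
  rw [← normalizer_eq_top_iff]
  refine eq_top_of_sylows fun r hr' => ?_
  haveI := Fact.mk hr'
  by_cases hrq : r = q
  · subst hrq; exact ⟨S, le_normalizer⟩
  obtain ⟨R⟩ := (inferInstance : Nonempty (Sylow r D))
  refine ⟨R, fun g hg => huniq g fun s hs => ?_⟩
  have hc : ⁅g, s⁆ ∈ Z := by
    show ((⁅g, s⁆ : D) : G) ∈ centralizer (F : Set G)
    refine centralizer_of_pCore fun p hp x hx => ?_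
    haveI := Fact.mk hp
    obtain ⟨i, hi⟩ := IsPGroup.iff_orderOf.mp R.isPGroup' ⟨g, hg⟩
    obtain ⟨j, hj⟩ := IsPGroup.iff_orderOf.mp S.isPGroup' ⟨s, hs⟩
    rw [orderOf_mk] at hi hj
    have key : ∀ (u : D) (ℓ m : ℕ), ℓ.Prime → orderOf u = ℓ ^ m → ℓ ≠ p →
        (MulAut.conjNormal (u : G) : MulAut (Cfsg.pCore p G)) = 1 := by
      intro u ℓ m hℓ hu hne
      apply MulEquiv.ext
      intro y
      refine Subtype.ext ?_
      rw [MulAut.conjNormal_apply, commute_pCore_of_act hact p u.2
        (by rw [orderOf_coe, hu]; exact ((Nat.coprime_primes hℓ hp).mpr hne).pow_left m) y.2,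
        mul_inv_cancel_right]
      rfl
    have h1 : (MulAut.conjNormal ((⁅g, s⁆ : D) : G) : MulAut (Cfsg.pCore p G)) = 1 := by
      rw [show ((⁅g, s⁆ : D) : G) = ⁅(g : G), (s : G)⁆ from map_commutatorElement D.subtype g s,
        map_commutatorElement]
      by_cases hpq : q = p
      · rw [key g r i hr' hi (fun e => hrq (e.trans hpq.symm)), commutatorElement_one_left]
      · rw [key s q j hq.out hj hpq, commutatorElement_one_right]
    have h2 := congrArg Subtype.val (DFunLike.congr_fun h1 (⟨x, hx⟩ : Cfsg.pCore p G))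
    rw [MulAut.conjNormal_apply] at h2
    exact mul_inv_eq_iff_eq_mul.mp h2
  rw [show g * s * g⁻¹ = ⁅g, s⁆ * s by rw [commutatorElement_def]; group]
  exact mul_mem (mem_sup_right hc) (mem_sup_left hs)

/-- The derived group of an odd solvable group with Fitting subgroup of rank at most two is nilpotent. -/
theorem commutator_isNilpotent [Group.IsSolvable G] (hodd : Odd (Nat.card G))
    (hr : Cfsg.RankLE 2 (Cfsg.fittingSubgroup G)) : Group.IsNilpotent (commutator G) :=
  commutator_isNilpotent_of_act fun r hr' g hg => by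
    haveI := Fact.mk hr'
    exact commutator_conj_pPow hodd hr r hg

/-- `G' ≤ F(G)` in that case. -/
theorem commutator_le_fitting [Group.IsSolvable G] (hodd : Odd (Nat.card G))
    (hr : Cfsg.RankLE 2 (Cfsg.fittingSubgroup G)) : commutator G ≤ Cfsg.fittingSubgroup G :=
  le_fittingSubgroup (commutator_isNilpotent hodd hr)

/-- With nilpotent derived group, a characteristic subgroup of a Sylow subgroup inside the derived group is normal. -/
theorem normal_of_char_sylow (hnil : Group.IsNilpotent (commutator G)) {q : ℕ} [hq : Fact q.Prime]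
    (S : Sylow q G) (T : Subgroup (S : Subgroup G)) [hT : T.Characteristic]
    (hle : T.map (S : Subgroup G).subtype ≤ commutator G) : (T.map (S : Subgroup G).subtype).Normal := by
  haveI := hnil
  set D := commutator G
  set T' := T.map (S : Subgroup G).subtype with hT'
  let SD : Subgroup G := (S : Subgroup G) ⊔ D
  haveI : SD.Normal := ⟨fun x hx g => by
    have h1 : ⁅g, x⁆ ∈ D := commutator_mem_commutator (mem_top _) (mem_top _)
    rw [show g * x * g⁻¹ = ⁅g, x⁆ * x by rw [commutatorElement_def]; group]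
    exact mul_mem (mem_sup_right h1) hx⟩
  have hNS : normalizer ((S : Subgroup G) : Set G) ≤ normalizer (T' : Set G) := by
    intro g hg
    refine Lib.Coprime.mem_normalizer_of_conj_smul_eq (eq_of_le_of_card_ge ?_ (Lib.Coprime.card_conj_smul g T').ge)
    let σ : MulAut (S : Subgroup G) := (S : Subgroup G).normalizerMonoidHom ⟨g, hg⟩
    rintro _ ⟨_, ⟨t, ht, rfl⟩, rfl⟩
    exact ⟨σ t, (SetLike.ext_iff.mp (hT.fixed σ) t).mpr ht, rfl⟩
  have hS : (S : Subgroup G) ≤ normalizer (T' : Set G) := le_normalizer.trans hNS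
  have hDN : D ≤ normalizer (T' : Set G) := by
    suffices h : (normalizer (T' : Set G)).subgroupOf D = ⊤ from subgroupOf_eq_top.mp h
    refine eq_top_of_sylows fun r hr' => ?_
    haveI := Fact.mk hr'
    obtain ⟨R⟩ := (inferInstance : Nonempty (Sylow r D))
    refine ⟨R, ?_⟩
    by_cases hrq : r = q
    · subst hrq
      haveI : (R : Subgroup D).Normal := (Group.isNilpotent_of_finite_tfae (G := D)).out 0 3 rfl rfl |>.mp inferInstance r hq R
      haveI := Sylow.characteristic_of_normal R inferInstance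
      have h1 : (R : Subgroup D).map D.subtype ≤ (S : Subgroup G) :=
        (le_pCore (R.isPGroup'.map _)).trans (pCore_le_sylow S)
      exact fun x hx => hS (h1 (mem_map_of_mem D.subtype hx))
    · intro x hx
      refine centralizer_le_normalizer _ (mem_centralizer_iff.mpr fun t ht => ?_)
      obtain ⟨i, hi⟩ := IsPGroup.iff_orderOf.mp R.isPGroup' ⟨x, hx⟩
      rw [orderOf_mk] at hi
      obtain ⟨u, hu, hut⟩ := ht
      obtain ⟨j, hj⟩ := IsPGroup.iff_orderOf.mp S.isPGroup' u
      exact congrArg Subtype.val (Lib.Transfer.commute_of_coprime_orderOf (x := (⟨t, hle ⟨u, hu, hut⟩⟩ : D)) (y := x) (by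
        rw [hi, orderOf_mk, ← hut, show orderOf ((S : Subgroup G).subtype u) = orderOf u from orderOf_coe u, hj]
        exact (((Nat.coprime_primes hq.out hr').mpr (Ne.symm hrq)).pow_left j).pow_right i)).eq
  rw [← normalizer_eq_top_iff, eq_top_iff]
  intro g _
  obtain ⟨S₁, hS₁⟩ : ∃ S₁ : Sylow q SD, (S₁ : Subgroup SD) = (S : Subgroup G).subgroupOf SD :=
    ⟨S.subtype le_sup_left, rfl⟩
  have htop := Sylow.normalizer_sup_eq_top S₁
  rw [hS₁, map_subgroupOf_eq_of_le le_sup_left] at htop
  exact ((htop.ge.trans (sup_le hNS (sup_le hS hDN))) (mem_top g))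

/-- The normal Hall subgroups for the large primes. -/
theorem exists_char_hall [Group.IsSolvable G] (hodd : Odd (Nat.card G))
    (hr : Cfsg.RankLE 2 (Cfsg.fittingSubgroup G)) (p : ℕ) :
    ∃ N : Subgroup G, N.Characteristic ∧ Cfsg.IsPiHall {q | q.Prime ∧ p < q} N := by
  set π : Set ℕ := {q | q.Prime ∧ p < q}
  have hchar : (Cfsg.piCore π G).Characteristic := by
    refine characteristic_iff_map_le.mpr fun φ => ?_
    haveI : (Cfsg.piCore π G).Normal := Subgroup.sSup_normal _ fun _ h => h.1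
    haveI : ((Cfsg.piCore π G).map φ.toMonoidHom).Normal := Subgroup.Normal.map inferInstance _ φ.surjective
    exact OddLocal.le_piCore fun r hr' h => by
      rw [card_map_of_injective φ.injective] at h
      exact OddLocal.piCore_isPi π r hr' h
  refine ⟨Cfsg.piCore π G, hchar, OddLocal.piCore_isPi π, fun q hq hqπ hd => ?_⟩
  haveI := Fact.mk hq
  obtain ⟨Q⟩ := (inferInstance : Nonempty (Sylow q G))
  set F := Cfsg.fittingSubgroup G
  let E : Subgroup G := (Q : Subgroup G) ⊔ F
  haveI : E.Normal := ⟨fun x hx g => by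
    have h1 : ⁅g, x⁆ ∈ F := commutator_le_fitting hodd hr (commutator_mem_commutator (mem_top _) (mem_top _))
    rw [show g * x * g⁻¹ = ⁅g, x⁆ * x by rw [commutatorElement_def]; group]
    exact mul_mem (mem_sup_right h1) hx⟩
  let K : Subgroup G := (Q : Subgroup G) ⊔ Cfsg.piCore π G
  haveI hpn : (Cfsg.piCore π G).Normal := Subgroup.sSup_normal _ fun _ h => h.1
  have hKπ : ∀ r : ℕ, r.Prime → r ∣ Nat.card K → r ∈ π := by
    intro r hr' hd'
    have h := hd'.trans (Dvd.intro _ (Lib.Coprime.card_sup_mul_card_inf (Cfsg.piCore π G) (Q : Subgroup G) |>.trans rfl))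
    rcases hr'.dvd_mul.mp h with h | h
    · first
        | exact OddLocal.piCore_isPi π r hr' h
        | (obtain ⟨j, hj⟩ := IsPGroup.iff_card.mp Q.isPGroup'; rw [hj] at h
           exact (Nat.prime_dvd_prime_iff_eq hr' hq).mp (hr'.dvd_of_dvd_pow h) ▸ hqπ)
    · first
        | exact OddLocal.piCore_isPi π r hr' h
        | (obtain ⟨j, hj⟩ := IsPGroup.iff_card.mp Q.isPGroup'; rw [hj] at h
           exact (Nat.prime_dvd_prime_iff_eq hr' hq).mp (hr'.dvd_of_dvd_pow h) ▸ hqπ)
  -- `F` normalises `K`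
  have hFK : F ≤ normalizer (K : Set G) := by
    refine (fittingSubgroup_eq_iSup_pCore (G := G)).le.trans ?_
    refine iSup_le fun r x hx => ?_
    haveI := Fact.mk r.2
    by_cases hrπ : (r : ℕ) ∈ π
    · refine le_normalizer (mem_sup_right (OddLocal.le_piCore (N := Cfsg.pCore (r : ℕ) G) (fun s hs hd' => ?_) hx))
      obtain ⟨j, hj⟩ := IsPGroup.iff_card.mp (isPGroup_pCore (G := G) (r : ℕ))
      rw [hj] at hd'
      exact (Nat.prime_dvd_prime_iff_eq hs r.2).mp (hs.dvd_of_dvd_pow hd') ▸ hrπ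
    · -- `Q` centralises `x`
      have hrp : (r : ℕ) < q := by
        have h1 : ¬ p < (r : ℕ) := fun h => hrπ ⟨r.2, h⟩
        have := hqπ.2; omega
      have hQc : ∀ u ∈ (Q : Subgroup G), u * x = x * u := by
        intro u hu
        by_cases hr2 : (r : ℕ) = 2
        · have hb : Cfsg.pCore (r : ℕ) G = ⊥ := pCore_eq_bot_of_not_dvd (by rw [hr2]; exact hodd.not_two_dvd_nat)
          rw [hb, mem_bot] at hx
          rw [hx, one_mul, mul_one]
        obtain ⟨j, hj⟩ := IsPGroup.iff_orderOf.mp Q.isPGroup' ⟨u, hu⟩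
        rw [orderOf_mk] at hj
        set σ : MulAut (Cfsg.pCore (r : ℕ) G) := MulAut.conjNormal u
        have hσ : σ ^ q ^ j = 1 := by rw [← map_pow, ← hj, pow_orderOf_eq_one, map_one]
        have hone : σ = 1 := by
          clear hj
          induction j with
          | zero => simpa using hσ
          | succ j ih =>
            refine ih ?_
            refine eq_one_of_prime_gt hr2 (isPGroup_pCore _) (prankLE_pCore hr) hq hrp _ ?_
            rw [← pow_mul, ← pow_succ, hσ]
        have h2 := congrArg Subtype.val (DFunLike.congr_fun hone (⟨x, hx⟩ : Cfsg.pCore (r : ℕ) G))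
        rw [MulAut.conjNormal_apply] at h2
        exact mul_inv_eq_iff_eq_mul.mp h2
      refine Lib.Coprime.mem_normalizer_of_conj_smul_eq ?_
      have h1 : MulAut.conj x • (Q : Subgroup G) = (Q : Subgroup G) :=
        Lib.Coprime.conj_smul_eq_self (centralizer_le_normalizer _ (mem_centralizer_iff.mpr hQc))
      show MulAut.conj x • ((Q : Subgroup G) ⊔ Cfsg.piCore π G) = (Q : Subgroup G) ⊔ Cfsg.piCore π G
      rw [Subgroup.smul_sup, h1, Lib.Coprime.conj_smul_of_normal]
  have hEK : E ≤ normalizer (K : Set G) := sup_le (le_sup_left.trans le_normalizer) hFK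
  have hKE : K ⊓ E ≤ Cfsg.piCoreOf π E := OddLocal.le_piCoreOf inf_le_right
    ((le_inf hEK le_normalizer).trans inf_normalizer_le_normalizer_inf)
    (fun r hr' h => hKπ r hr' (h.trans (card_dvd_of_le inf_le_left)))
  haveI : (Cfsg.piCoreOf π E).Normal := by
    rw [← normalizer_eq_top_iff, eq_top_iff]
    exact le_trans (by rw [normalizer_eq_top]) (OddLocal.normalizer_le_normalizer_piCoreOf π E)
  have hQN : (Q : Subgroup G) ≤ Cfsg.piCore π G :=
    (le_inf le_sup_left le_sup_left).trans (hKE.trans (OddLocal.le_piCore (OddLocal.piCoreOf_isPi π E)))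
  exact Q.not_dvd_index (hd.trans (index_dvd_of_le hQN))

end Cfsg.Agent.Lib.Hall
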